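import Cfsg.Agent.L34S.A

/-! S3237: the two frames. `Cl`: Clifford coordinates of `H = C(z)`; `Hs`: the abstract facts about `H`. -/
set_option autoImplicit false
namespace Cfsg.Agent.A34
open Subgroup BG PLocal

variable {G : Type*} [Group G]

/-- digit `i` of `a` in base 8 -/
def dg (a i : ℕ) : ℕ := a / 8 ^ i % 8

/-- `gm z γ j = z ^ (j / 4) * γ (j % 4)` -/
def gm (z : G) (γ : ℕ → G) (j : ℕ) : G := z ^ (j / 4) * γ (j % 4)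

/-- `H = C(z)` of order 768 permutes four anticommuting involutions `γ 0 .. γ 3` up to `z`;
`σ h` is the base-8 code of the signed permutation. -/
structure Cl (z : G) (γ : ℕ → G) (σ : G → ℕ) : Prop where
  z2 : z * z = 1
  z1 : z ≠ 1
  cH : #C1[z] = 768
  γH : ∀ i, γ i ∈ C1[z]
  γ2 : ∀ i, γ i * γ i = 1
  anti : ∀ i < 4, ∀ j < 4, i ≠ j → γ i * γ j = z * (γ j * γ i)
  lt : ∀ h, σ h < 4096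
  act : ∀ h ∈ C1[z], ∀ i < 4, h * γ i * h⁻¹ = gm z γ (dg (σ h) i)
  cen : ∀ h ∈ C1[z], (∀ i < 4, h * γ i = γ i * h) → h = 1 ∨ h = z

/-- Abstract facts about `H = C1[z]`; `U = A ⊓ B = {1, z, v, vz}`. -/
structure Hs (z v b c : G) (T A B Q M S : Subgroup G) : Prop where
  z2 : z * z = 1
  z1 : z ≠ 1
  cH : #C1[z] = 768
  v2 : v * v = 1
  v1 : v ≠ 1
  vz : v ≠ z
  U : ∀ x, x ∈ A ⊓ B ↔ x = 1 ∨ x = z ∨ x = v ∨ x = v * z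
  AT : A ≤ T
  BT : B ≤ T
  TQ : T ≤ Q
  TM : T ≤ M
  QS : Q ≤ S
  MS : M ≤ S
  SH : S ≤ C1[z]
  cA : #A = 16
  cB : #B = 16
  cT : #T = 64
  cQ : #Q = 128
  cM : #M = 128
  cS : #S = 256
  nT : ∀ h ∈ C1[z], ∀ x ∈ T, h * x * h⁻¹ ∈ T
  nQ : ∀ h ∈ C1[z], ∀ x ∈ Q, h * x * h⁻¹ ∈ Q
  QM : ∀ x ∈ Q, x ∈ M → x ∈ T
  AB : ∀ x ∈ T, ∃ a ∈ A, ∃ a' ∈ B, x = a * a'
  Tv : ∀ x ∈ T, x * v = v * x
  hv : ∀ h ∈ C1[z], h * v * h⁻¹ = v ∨ h * v * h⁻¹ = v * z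
  bQ : b ∈ Q
  bT : b ∉ T
  b2 : b * b = 1
  bv : b * v * b⁻¹ = v * z
  bA : ∀ x ∈ A, b * x * b⁻¹ ∈ B
  bB : ∀ x ∈ B, b * x * b⁻¹ ∈ A
  cM' : c ∈ M
  cQ' : c ∉ Q
  c2 : c * c = 1
  sq4 : ∀ y ∈ C1[z], y * y * (y * y) = 1 → y * y ∈ T
  sqz : ∀ t ∈ C1[z], t * t = 1 → t ∉ T → ∃ y ∈ C1[z], y * y = z ∧ y * t = t * y
  c36 : 36 ≤ {x | x ∈ T ∧ x ∉ A ⊓ B ∧ (x * x = 1 ∨ x * x = z)}.ncard
  c24 : {y | y ∈ C1[z] ∧ (y * y = v ∨ y * y = v * z)}.ncard ≤ 24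
  csq : ∀ x ∈ C1[z], (∀ y ∈ C1[z], x * (y * y) = y * y * x) → x ∈ A ⊓ B
  cenQ : ∀ t ∈ Q, t ∉ T → t * t = 1 → ∀ w ∈ T, w * w = 1 → w * t = t * w → w = 1 ∨ w = z
  CQ : ∀ x ∈ C1[z], (∀ q ∈ Q, x * q = q * x) → x = 1 ∨ x = z
  r3 : ∃ r : G, ∀ x ∈ T, x * (r * x * r⁻¹) * (r * (r * x * r⁻¹) * r⁻¹) ∈ A ⊓ B
  E16 : ∀ F ≤ C1[z], #F = 16 → (∀ x ∈ F, x * x = 1) → F ≤ T
  inv : ∀ t ∈ T, t * t = 1 → t ∈ A ∨ t ∈ B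
  com : ∀ a ∈ A, ∀ a' ∈ B, a * a' * a⁻¹ * a'⁻¹ ∈ A ⊓ B
  cjT : ∀ x ∈ T, x ∉ A ⊓ B → x * x = 1 → ∀ y, (y ∈ A ∨ y ∈ B) → y ∉ A ⊓ B →
    ∃ h ∈ C1[z], h * x * h⁻¹ = y

/-- The fused case. -/
structure Fz (z v b c : G) (T A B Q M S : Subgroup G) : Prop extends Hs z v b c T A B Q M S where
  zv : IsConj z v
  eA : ∀ a ∈ A, a * a = 1
  eB : ∀ a ∈ B, a * a = 1

end Cfsg.Agent.A34
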