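import Cfsg.Agent.A34.D

/-! S3237: finite facts on codes. -/
set_option autoImplicit false
set_option maxRecDepth 100000
namespace Cfsg.Agent.A34

theorem memL : ∀ a < 4096, (∀ i < 4, ∀ j < i, dg a i % 4 ≠ dg a j % 4) → a ∈ L := by decide +kernel
theorem ext4 : ∀ a < 4096, a = dg a 0 + 8 * dg a 1 + 64 * dg a 2 + 512 * dg a 3 := by
  intro a ha; simp only [dg]; omega
theorem ndL : L.Nodup := by decide +kernel
theorem cloZ : clo LZ = true := by decide +kernel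
theorem cloE : clo LE = true := by decide +kernel
theorem cloA : clo LA = true := by decide +kernel
theorem cloB : clo LB = true := by decide +kernel
theorem cloT : clo LT = true := by decide +kernel
theorem cloQ : clo LQ = true := by decide +kernel
theorem cloM : clo LM = true := by decide +kernel
theorem nd : LA.Nodup ∧ LB.Nodup ∧ LT.Nodup ∧ LQ.Nodup ∧ LM.Nodup ∧ LS.Nodup ∧ LE.Nodup := by decide +kernel
theorem subs : (∀ a ∈ LA, a ∈ LT) ∧ (∀ a ∈ LB, a ∈ LT) ∧ (∀ a ∈ LT, a ∈ LQ) ∧ (∀ a ∈ LT, a ∈ LM) ∧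
    (∀ a ∈ LQ, a ∈ LS) ∧ (∀ a ∈ LM, a ∈ LS) ∧ (∀ a ∈ LQ, a ∈ LM → a ∈ LT) ∧
    (∀ a ∈ LA, a ∈ LB → a = 1672 ∨ a = 4012) ∧ (∀ a ∈ LT, chi a = 0) ∧
    (∀ a ∈ LT, ∃ x ∈ LA, ∃ y ∈ LB, a = mu x y) := by decide +kernel
theorem swp : (∀ x ∈ LA, mu (mu 4008 x) (iv 4008) ∈ LB) ∧ ∀ x ∈ LB, mu (mu 4008 x) (iv 4008) ∈ LA := by decide +kernel
theorem sq4 : ∀ a ∈ L, mu (mu a a) (mu a a) = 1672 → mu a a ∈ LT := by decide +kernel
theorem sqz : ∀ a ∈ L, mu a a = 1672 → a ∉ LT →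
    ∃ i < 5, ∃ j < 5, i ≠ j ∧ p5 a i = i ∧ p5 a j = j ∧ s5 a i = s5 a j := by decide +kernel
theorem len : L18.length = 18 ∧ L12.length = 12 ∧ L18.Nodup ∧ ∀ a ∈ L18, a ∈ L := by decide +kernel

end Cfsg.Agent.A34
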