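import Cfsg.Agent.A34.D

/-! S3237: finite facts on codes. -/
set_option autoImplicit false
set_option maxRecDepth 100000
namespace Cfsg.Agent.A34

def mS : ℕ := 57816431551342601339291365367560248055878237416911590903669648928585407607717445132401610966236209936493256645840519554392413236294042429593446571996693714947468062406457882000329086411522336481391446420729732277684703280588343720481560276521343437815624396305808941061647035636744893608605891533821316976525100078572098141985244936896166679393300887968996299192348697523977521896015287091692690455081607412441646089567246355172056842897950762194956750005525866420117842317873774594772500927835325057825880341967156998483974196864971985186396065980595940041367362512411573245608314117362484339536870363145702793661546347455198564412285435602914171538643451343023459013079405329390261225131499938045638153252494869544165112085211631833098666471744469866077123602331875387018576576330953855913068474200174862226628494898183389172394519637396623683347238798045928102500567859687960115394154435677375861707796326906340757331300831854399971626714467888400447411475297359465165520965772258164633342949964909313106528712999122452715491029319344409289227130770873009055064888997697015832810300586898584254106724978941459002811173624966415929544296225177180762110007836989924113467368960855940632865697056303391703040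
def mQ : ℕ := 57368242159471728460692207496493889543817165809028555315269109014410326928587852534476017082777014510628967834632453511335107707330522642525102780553758960494821241624677971198420670800456707127671708916256587369044283727265711434868021089182224771252781908788920468342661857728904857478560965426605451799095848120046598361195681454114425400689009649983623276595604875911231457877397444826681465365261356440239990038003941519429573160364669521918804578561833690251982359956192021335450195176861767106379145032270526636792345329956171994212794064721017616029007170557567211792060395487079386681139080267371083002616664453279427371667529652003069400664441531477898659160836440048716790732527881945883919504200148499804809987207040792164710634657170031256600184769500698714374244743305030480831121178291394136577320043484637436864936158884550216005034198303519599723033276916529636287588931327440808333564850937531055701322110651482494695984064255018814957666705505816732785985356082517990488935808092094329145478135343610978058247725708496107053389411942491378288868107730695389902333016252887158781562075910339272408792574481982695433946904052971803221322751048237919308750478215158537981453058350553938001920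
theorem LV1 : LV.map Prod.fst = L := by decide +kernel
theorem LV2 : ∀ p ∈ LV, iv p.1 = p.2 ∧ mu p.2 p.1 = 1672 := by decide +kernel
theorem iv_spec (a : ℕ) (ha : a ∈ L) : mu (iv a) a = 1672 ∧ (a, iv a) ∈ LV := by
  rw [← LV1] at ha
  obtain ⟨p, hp, rfl⟩ := List.mem_map.1 ha
  rw [(LV2 p hp).1]; exact ⟨(LV2 p hp).2, hp⟩
theorem bS : ∀ a < 4096, mS.testBit a = true → a ∈ LS := by decide +kernel
theorem bQ : ∀ a < 4096, mQ.testBit a = true → a ∈ LQ := by decide +kernel
theorem mu_lt (a b : ℕ) : mu a b < 4096 := by
  have k : ∀ j, ap a j < 8 := fun j => Nat.mod_lt _ (by norm_num)
  have := k (dg b 0); have := k (dg b 1); have := k (dg b 2); have := k (dg b 3)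
  unfold mu; omega
theorem nQ' : (LV.all fun p => LQ.all fun x => mQ.testBit (mu (mu p.1 x) p.2)) = true := by decide +kernel
theorem nTQ : ∀ p ∈ LV, ∀ x ∈ LQ, mu (mu p.1 x) p.2 ∈ LQ := fun p hp x hx =>
  bQ _ (mu_lt _ _) (List.all_eq_true.1 (List.all_eq_true.1 nQ' p hp) x hx)
theorem chiT : ∀ a ∈ LQ, chi a = 0 → a ∈ LT := by decide +kernel
theorem cS' : (LS.all fun a => LS.all fun b => mS.testBit (mu a b)) = true := by decide +kernel
theorem cloS : clo LS = true := by
  simp only [clo, Bool.and_eq_true, List.all_eq_true, mem_iff]
  exact ⟨by decide +kernel, fun a ha => ⟨(by decide +kernel : ∀ a ∈ LS, a ∈ L) a ha, fun b hb =>
    bS _ (mu_lt _ _) (List.all_eq_true.1 (List.all_eq_true.1 cS' a ha) b hb)⟩⟩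

end Cfsg.Agent.A34
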