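import Cfsg.Agent.A34.D

/-! S3237: finite facts on codes. -/
set_option autoImplicit false
set_option maxRecDepth 100000
namespace Cfsg.Agent.A34

theorem csq : ∀ a ∈ L, (∀ b ∈ L, mu a (mu b b) = mu (mu b b) a) → a ∈ LZ := by decide +kernel
theorem cenQ : (∀ a ∈ LQ, a ∉ LT → mu a a = 1672 → a ∈ LE) ∧ (∀ a ∈ LT, mu a a = 1672 → a ∉ LE → a ∈ LAB) ∧
    (∀ a ∈ LAB, ∀ j < 4, mu a (gc j) = mu (gc j) a → a ∈ LZ) ∧ (∀ j < 4, chi (gc j) = 1 ∧ gc j ∉ LT ∧ gc j ∈ LQ) := by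
  decide +kernel
theorem r3 : ∀ a ∈ LT, mu (mu a (mu (mu 1553 a) (iv 1553))) (mu (mu 1553 (mu (mu 1553 a) (iv 1553))) (iv 1553)) ∈ LZ := by
  decide +kernel
theorem com : ∀ a ∈ LA, ∀ b ∈ LB, mu (mu (mu a b) (iv a)) (iv b) ∈ LZ := by decide +kernel
theorem cjT : (∀ a ∈ LAB, a ∉ LZ → ∃ h ∈ L, mu h a = mu 83 h) ∧ ∀ a ∈ LAB, a ∉ LZ → ∃ h ∈ L, mu h 83 = mu a h := by decide +kernel
theorem swz : ∀ a ∈ LAB, a ∉ LZ → ∃ i < 4, ∃ j < 4, i ≠ j ∧ dg a i % 4 = j ∧ dg a j % 4 = i ∧ dg a i / 4 = dg a j / 4 := by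
  decide +kernel
theorem memI : ∀ a ∈ L, mu a a = 1672 → (a ∈ LE → a = 1672 ∨ ∃ i < 5, a = gc i) → a ∈ LI := by decide +kernel
theorem e16_eq : e16 = true := by decide +kernel

end Cfsg.Agent.A34
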