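import Cfsg.Agent.A34.D1
import Cfsg.Agent.A34.D2

/-! S3237: the code map `σ` of a Clifford frame. -/
set_option autoImplicit false
set_option linter.unusedSectionVars false
namespace Cfsg.Agent.A34
open Subgroup BG PLocal

variable {G : Type*} [Group G] [Finite G] {z : G} {γ : ℕ → G} {σ : G → ℕ}

theorem dg_lt (a i : ℕ) : dg a i < 8 := Nat.mod_lt _ (by norm_num)

/-- `v = γ₀γ₁γ₂γ₃` -/
def vv (γ : ℕ → G) : G := γ 0 * γ 1 * γ 2 * γ 3
/-- the five involutions -/
def dl (γ : ℕ → G) (i : ℕ) : G := if i < 4 then γ i else vv γ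

namespace Cl
variable (h : Cl z γ σ)
include h

theorem zH : z ∈ C1[z] := mem_centralizer_singleton_iff.2 rfl
theorem cz {x : G} (hx : x ∈ C1[z]) (n : ℕ) : x * z ^ n = z ^ n * x :=
  (Commute.pow_right (show Commute x z from mem_centralizer_singleton_iff.1 hx) n).eq
theorem zp (n : ℕ) : z ^ n = z ^ (n % 2) := by
  conv_lhs => rw [← Nat.div_add_mod n 2, pow_add, pow_mul, pow_two, h.z2, one_pow, one_mul]
theorem ncm {i j : ℕ} (hi : i < 4) (hj : j < 4) (e : γ i * γ j = γ j * γ i) : i = j := by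
  by_contra ne
  have := h.anti i hi j hj ne
  rw [e] at this
  exact h.z1 (by simpa using this)
theorem gcm (i j : ℕ) (e : i % 4 = j % 4) : gm z γ i * gm z γ j = gm z γ j * gm z γ i := by
  have c : Commute z (γ (j % 4)) := (show Commute (γ (j % 4)) z from mem_centralizer_singleton_iff.1 (h.γH _)).symm
  simp only [gm, e]
  exact (((Commute.refl z).pow_pow _ _).mul_right (c.pow_left _)).mul_left
    ((c.pow_left _).symm.mul_right (Commute.refl _))
theorem gm_inj {i j : ℕ} (hi : i < 8) (hj : j < 8) (e : gm z γ i = gm z γ j) : i = j := by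
  have e4 : i % 4 = j % 4 := by
    refine h.ncm (Nat.mod_lt _ (by norm_num)) (Nat.mod_lt _ (by norm_num)) ?_
    have : γ (i % 4) = (z ^ (i / 4))⁻¹ * z ^ (j / 4) * γ (j % 4) := by
      rw [mul_assoc]; exact eq_inv_mul_of_mul_eq e
    have c : Commute z (γ (j % 4)) := (show Commute (γ (j % 4)) z from mem_centralizer_singleton_iff.1 (h.γH _)).symm
    rw [this]
    exact (((c.pow_left _).inv_left.mul_left (c.pow_left _)).mul_left (Commute.refl _)).eq
  simp only [gm, e4, mul_left_inj] at e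
  have z1 := h.z1
  have : i / 4 = j / 4 := by
    rcases (by omega : i / 4 = 0 ∨ i / 4 = 1) with a | a <;> rcases (by omega : j / 4 = 0 ∨ j / 4 = 1) with b | b <;>
      rw [a, b] at e ⊢ <;> simp_all
  omega
theorem gm4 {i : ℕ} (hi : i < 4) : gm z γ i = γ i := by
  simp [gm, Nat.div_eq_of_lt hi, Nat.mod_eq_of_lt hi]
theorem actg {x : G} (hx : x ∈ C1[z]) {j : ℕ} (_hj : j < 8) : x * gm z γ j * x⁻¹ = gm z γ (ap (σ x) j) := by
  have e := h.act x hx (j % 4) (Nat.mod_lt _ (by norm_num))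
  have l := dg_lt (σ x) (j % 4)
  calc x * gm z γ j * x⁻¹ = z ^ (j / 4) * (x * γ (j % 4) * x⁻¹) := by
        simp only [gm, ← mul_assoc, h.cz hx]
    _ = _ := by
        rw [e, gm, gm, ← mul_assoc, ← pow_add, h.zp, h.zp (ap _ _ / 4), ap]
        congr 2 <;> omega
theorem ext {x : G} (hx : x ∈ C1[z]) {a : ℕ} (ha : a < 4096) (e : ∀ i < 4, x * γ i * x⁻¹ = gm z γ (dg a i)) :
    σ x = a := by
  have : ∀ i < 4, dg (σ x) i = dg a i := fun i hi =>
    h.gm_inj (dg_lt _ _) (dg_lt _ _) ((h.act x hx i hi).symm.trans (e i hi))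
  rw [ext4 _ (h.lt x), ext4 _ ha, this 0 (by norm_num), this 1 (by norm_num), this 2 (by norm_num),
    this 3 (by norm_num), ← ext4 _ ha]
theorem mul {x y : G} (hx : x ∈ C1[z]) (hy : y ∈ C1[z]) : σ (x * y) = mu (σ x) (σ y) := by
  have : ∀ i < 4, dg (σ (x * y)) i = ap (σ x) (dg (σ y) i) := fun i hi =>
    h.gm_inj (dg_lt _ _) (Nat.mod_lt _ (by norm_num)) (by
      rw [← h.act _ (mul_mem hx hy) i hi, ← h.actg hx (dg_lt _ _), ← h.act y hy i hi]; group)
  rw [ext4 _ (h.lt _), this 0 (by norm_num), this 1 (by norm_num), this 2 (by norm_num), this 3 (by norm_num), mu]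
theorem inL {x : G} (hx : x ∈ C1[z]) : σ x ∈ L :=
  memL _ (h.lt x) fun i hi j hj e => by
    have := h.gcm _ _ e
    rw [← h.act x hx i hi, ← h.act x hx j (by omega)] at this
    have := h.ncm hi (by omega : j < 4) (by simpa only [conj_mul, mul_left_inj, mul_right_inj] using this)
    omega
theorem one' {x : G} (hx : x ∈ C1[z]) (e : ∀ i < 4, x * γ i = γ i * x) : σ x = 1672 :=
  h.ext hx (by norm_num) fun i hi => by
    rw [e i hi, mul_inv_cancel_right, (by interval_cases i <;> rfl : dg 1672 i = i), h.gm4 hi]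
theorem one : σ 1 = 1672 := h.one' (one_mem _) (by simp)
theorem σz : σ z = 1672 := h.one' h.zH fun i _ => (mem_centralizer_singleton_iff.1 (h.γH i)).symm
theorem ker {x y : G} (hx : x ∈ C1[z]) (hy : y ∈ C1[z]) (e : σ x = σ y) : x = y ∨ x = y * z := by
  have := h.cen (y⁻¹ * x) (mul_mem (inv_mem hy) hx) fun i hi => by
    have := (h.act x hx i hi).trans (e ▸ (h.act y hy i hi).symm)
    calc y⁻¹ * x * γ i = y⁻¹ * (x * γ i * x⁻¹) * x := by group
      _ = _ := by rw [this]; group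
  rcases this with a | a
  · exact .inl (inv_mul_eq_one.1 a).symm
  · exact .inr (by rw [← a]; group)
theorem ker1 {x : G} (hx : x ∈ C1[z]) (e : σ x = 1672) : x = 1 ∨ x = z := by
  simpa using h.ker hx (one_mem _) (e.trans h.one.symm)
theorem mulz {x : G} (hx : x ∈ C1[z]) : σ (x * z) = σ x :=
  h.ext (mul_mem hx h.zH) (h.lt x) fun i hi => by
    rw [← h.act x hx i hi, mul_assoc x z, ← mem_centralizer_singleton_iff.1 (h.γH i)]; group
theorem inv {x : G} (hx : x ∈ C1[z]) : σ x⁻¹ = iv (σ x) := by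
  have h2 := mul_mem hx hx
  have h4 := mul_mem h2 h2
  have h8 := mul_mem h4 h4
  have h16 := mul_mem h8 h8
  have hw := mul_mem hx (mul_mem h2 (mul_mem h4 h16))
  generalize hw' : x * (x * x * (x * x * (x * x) * (x * x * (x * x) * (x * x * (x * x)) *
    (x * x * (x * x) * (x * x * (x * x)))))) = w at hw
  have e : σ w = iv (σ x) := by
    rw [← hw', h.mul hx (mul_mem h2 (mul_mem h4 h16)), h.mul h2 (mul_mem h4 h16), h.mul h4 h16, h.mul h8 h8,
      h.mul h4 h4, h.mul h2 h2, h.mul hx hx]; rfl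
  rcases h.ker1 (mul_mem hw hx) (by rw [h.mul hw hx, e]; exact (iv_spec _ (h.inL hx)).1) with a | a
  · rw [← e, eq_inv_of_mul_eq_one_left a]
  · rw [← e, ← h.mulz (inv_mem hx), mem_centralizer_singleton_iff.1 (inv_mem hx), ← a, mul_inv_cancel_right]
theorem conj {x y : G} (hx : x ∈ C1[z]) (hy : y ∈ C1[z]) : σ (x * y * x⁻¹) = mu (mu (σ x) (σ y)) (iv (σ x)) := by
  rw [h.mul (mul_mem hx hy) (inv_mem hx), h.mul hx hy, h.inv hx]

theorem fib_le (l : List ℕ) : {x | x ∈ C1[z] ∧ σ x ∈ l}.ncard ≤ 2 * l.length := by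
  induction l with
  | nil => simp
  | cons a l ih =>
    have : {x | x ∈ C1[z] ∧ σ x = a}.ncard ≤ 2 := by
      rcases {x | x ∈ C1[z] ∧ σ x = a}.eq_empty_or_nonempty with e | ⟨y, hy, e⟩
      · simp [e]
      · exact (Set.ncard_le_ncard (t := {y, y * z}) (fun x hx => h.ker hx.1 hy (hx.2.trans e.symm))).trans
          ((Set.ncard_insert_le _ _).trans (by simp))
    refine (Set.ncard_le_ncard (t := {x | x ∈ C1[z] ∧ σ x = a} ∪ {x | x ∈ C1[z] ∧ σ x ∈ l}) fun x hx => ?_).trans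
      ((Set.ncard_union_le _ _).trans (by simp only [List.length_cons]; omega))
    rcases List.mem_cons.1 hx.2 with e | e
    exacts [.inl ⟨hx.1, e⟩, .inr ⟨hx.1, e⟩]
theorem fib_ge (l l' : List ℕ) (hl : ∀ a ∈ L, a ∈ l ∨ a ∈ l') :
    768 ≤ {x | x ∈ C1[z] ∧ σ x ∈ l}.ncard + 2 * l'.length := by
  have := h.fib_le l'
  have e : (C1[z] : Set G).ncard = 768 := h.cH
  have := (Set.ncard_le_ncard (s := (C1[z] : Set G)) (t := {x | x ∈ C1[z] ∧ σ x ∈ l} ∪ {x | x ∈ C1[z] ∧ σ x ∈ l'})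
    fun x hx => (hl _ (h.inL hx)).imp (fun e => ⟨hx, e⟩) fun e => ⟨hx, e⟩).trans (Set.ncard_union_le _ _)
  omega
theorem fib_eq (l : List ℕ) (hl : (L.filter fun a => !mem a l).length + l.length = 384) :
    {x | x ∈ C1[z] ∧ σ x ∈ l}.ncard = 2 * l.length := by
  have := h.fib_le l
  have := h.fib_ge l (L.filter fun a => !mem a l) fun a ha => by
    by_cases e : a ∈ l
    · exact .inl e
    · exact .inr (List.mem_filter.2 ⟨ha, by simpa [← mem_iff] using e⟩)
  omega
theorem surj {a : ℕ} (ha : a ∈ L) : ∃ x ∈ C1[z], σ x = a := by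
  by_contra hn
  have := h.fib_ge [a] (L.erase a) fun b hb => by
    by_cases e : b = a
    · exact .inl (by simp [e])
    · exact .inr ((List.mem_erase_of_ne e).2 hb)
  rw [List.length_erase_of_mem ha, (by decide +kernel : L.length = 384),
    (by ext x; simpa using fun hx e => hn ⟨x, hx, e⟩ : {x | x ∈ C1[z] ∧ σ x ∈ [a]} = ∅)] at this
  simp at this
theorem pre (l : List ℕ) (hl : clo l = true) (hn : (L.filter fun a => !mem a l).length + l.length = 384) :
    ∃ P : Subgroup G, (∀ x, x ∈ P ↔ x ∈ C1[z] ∧ σ x ∈ l) ∧ #P = 2 * l.length := by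
  simp only [clo, Bool.and_eq_true, List.all_eq_true, mem_iff] at hl
  let M : Submonoid G := ⟨⟨{x | x ∈ C1[z] ∧ σ x ∈ l}, fun {a b} ha hb =>
    ⟨mul_mem ha.1 hb.1, by rw [h.mul ha.1 hb.1]; exact (hl.2 _ ha.2).2 _ hb.2⟩⟩, one_mem _, h.one ▸ hl.1⟩
  refine ⟨⟨M, fun {x} hx => ?_⟩, fun x => Iff.rfl, h.fib_eq l hn⟩
  have : x⁻¹ = x ^ (orderOf x - 1) := inv_eq_of_mul_eq_one_left (by
    rw [← pow_succ, Nat.sub_add_cancel (orderOf_pos x), pow_orderOf_eq_one])
  rw [this]; exact M.pow_mem hx _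

end Cl
end Cfsg.Agent.A34
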