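import Cfsg.Agent.A34.M1
import Cfsg.Agent.A34.D3

/-! S3237: the five involutions of `E`, `v`, and the elementary abelian groups of order 16. -/
set_option autoImplicit false
set_option linter.unusedSectionVars false
set_option linter.unusedSimpArgs false
set_option linter.unusedVariables false
namespace Cfsg.Agent.A34
open Subgroup BG PLocal

variable {G : Type*} [Group G] [Finite G] {z : G} {γ : ℕ → G} {σ : G → ℕ}

namespace Cl
variable (h : Cl z γ σ)
include h

theorem vH : vv γ ∈ C1[z] := mul_mem (mul_mem (mul_mem (h.γH _) (h.γH _)) (h.γH _)) (h.γH _)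
theorem dH (i : ℕ) : dl γ i ∈ C1[z] := by unfold dl; split_ifs; exacts [h.γH _, h.vH]
theorem sw {i j : ℕ} (hi : i < 4) (hj : j < i) (x : G) : γ i * (γ j * x) = z * (γ j * (γ i * x)) := by
  rw [← mul_assoc, h.anti i hi j (by omega) (by omega)]; group
theorem sw' {i j : ℕ} (hi : i < 4) (hj : j < i) : γ i * γ j = z * (γ j * γ i) := h.anti i hi j (by omega) (by omega)
theorem gz (i : ℕ) (x : G) : γ i * (z * x) = z * (γ i * x) := by
  rw [← mul_assoc, mem_centralizer_singleton_iff.1 (h.γH i), mul_assoc]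
theorem zz (x : G) : z * (z * x) = x := by rw [← mul_assoc, h.z2, one_mul]
theorem gg (i : ℕ) (x : G) : γ i * (γ i * x) = x := by rw [← mul_assoc, h.γ2, one_mul]
theorem sort {a b c d : ℕ} (ha : a < 4) (hb : b < 4) (hc : c < 4) (hd : d < 4) (ab : a ≠ b) (ac : a ≠ c)
    (ad : a ≠ d) (bc : b ≠ c) (bd : b ≠ d) (cd : c ≠ d) : γ a * (γ b * (γ c * γ d)) =
      z ^ (((if b < a then 1 else 0) + (if c < a then 1 else 0) + (if d < a then 1 else 0) + (if c < b then 1 else 0) +
        (if d < b then 1 else 0) + (if d < c then 1 else 0)) % 2) * vv γ := by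
  have s10 := h.sw (i := 1) (j := 0) (by norm_num) (by norm_num)
  have s20 := h.sw (i := 2) (j := 0) (by norm_num) (by norm_num)
  have s30 := h.sw (i := 3) (j := 0) (by norm_num) (by norm_num)
  have s21 := h.sw (i := 2) (j := 1) (by norm_num) (by norm_num)
  have s31 := h.sw (i := 3) (j := 1) (by norm_num) (by norm_num)
  have s32 := h.sw (i := 3) (j := 2) (by norm_num) (by norm_num)
  have t10 := h.sw' (i := 1) (j := 0) (by norm_num) (by norm_num)
  have t20 := h.sw' (i := 2) (j := 0) (by norm_num) (by norm_num)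
  have t30 := h.sw' (i := 3) (j := 0) (by norm_num) (by norm_num)
  have t21 := h.sw' (i := 2) (j := 1) (by norm_num) (by norm_num)
  have t31 := h.sw' (i := 3) (j := 1) (by norm_num) (by norm_num)
  have t32 := h.sw' (i := 3) (j := 2) (by norm_num) (by norm_num)
  interval_cases a <;> interval_cases b <;> (try exact absurd rfl ab) <;> interval_cases c <;>
    (try exact absurd rfl ac) <;> (try exact absurd rfl bc) <;> interval_cases d <;>
    (try exact absurd rfl ad) <;> (try exact absurd rfl bd) <;> (try exact absurd rfl cd) <;>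
    simp [vv, mul_assoc, s10, s20, s30, s21, s31, s32, t10, t20, t30, t21, t31, t32, h.gz, h.zz]
theorem actv {x : G} (hx : x ∈ C1[z]) : x * vv γ * x⁻¹ = z ^ chi (σ x) * vv γ := by
  have m4 : ∀ n : ℕ, n % 4 < 4 := fun n => Nat.mod_lt _ (by norm_num)
  have ne : ∀ i < 4, ∀ j < 4, i ≠ j → dg (σ x) i % 4 ≠ dg (σ x) j % 4 := fun i hi j hj n e => by
    have := h.gcm _ _ e
    rw [← h.act x hx i hi, ← h.act x hx j hj] at this
    exact n (h.ncm hi hj (by simpa only [conj_mul, mul_left_inj, mul_right_inj] using this))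
  have gp : ∀ i n (y : G), γ i * (z ^ n * y) = z ^ n * (γ i * y) := fun i n y => by
    rw [← mul_assoc, h.cz (h.γH i), mul_assoc]
  have pp : ∀ m n (y : G), z ^ m * (z ^ n * y) = z ^ (m + n) * y := fun m n y => by rw [pow_add, mul_assoc]
  calc x * vv γ * x⁻¹ = (x * γ 0 * x⁻¹) * ((x * γ 1 * x⁻¹) * ((x * γ 2 * x⁻¹) * (x * γ 3 * x⁻¹))) := by
        simp [vv, mul_assoc]
    _ = _ := by
      rw [h.act x hx 0 (by norm_num), h.act x hx 1 (by norm_num), h.act x hx 2 (by norm_num), h.act x hx 3 (by norm_num)]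
      simp only [gm, mul_assoc, gp, pp]
      rw [h.sort (m4 _) (m4 _) (m4 _) (m4 _) (ne 0 (by norm_num) 1 (by norm_num) (by norm_num))
        (ne 0 (by norm_num) 2 (by norm_num) (by norm_num)) (ne 0 (by norm_num) 3 (by norm_num) (by norm_num))
        (ne 1 (by norm_num) 2 (by norm_num) (by norm_num)) (ne 1 (by norm_num) 3 (by norm_num) (by norm_num))
        (ne 2 (by norm_num) 3 (by norm_num) (by norm_num)), pp, h.zp, chi]
      simp only [lt4]
      congr 2; omega
theorem v2 : vv γ * vv γ = 1 := by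
  have s10 := h.sw (i := 1) (j := 0) (by norm_num) (by norm_num)
  have s20 := h.sw (i := 2) (j := 0) (by norm_num) (by norm_num)
  have s30 := h.sw (i := 3) (j := 0) (by norm_num) (by norm_num)
  have s21 := h.sw (i := 2) (j := 1) (by norm_num) (by norm_num)
  have s31 := h.sw (i := 3) (j := 1) (by norm_num) (by norm_num)
  have s32 := h.sw (i := 3) (j := 2) (by norm_num) (by norm_num)
  simp [vv, mul_assoc, s10, s20, s30, s21, s31, s32, h.gz, h.zz, h.gg, h.γ2, h.z2]
theorem σγ {j : ℕ} (hj : j < 4) : σ (γ j) = gc j :=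
  h.ext (h.γH j) (by interval_cases j <;> decide) fun i hi => by
    by_cases e : i = j
    · subst e
      rw [mul_inv_cancel_right, (by interval_cases i <;> decide : dg (gc i) i = i), h.gm4 hi]
    · have : dg (gc j) i = i + 4 := by interval_cases i <;> interval_cases j <;> first | rfl | exact absurd rfl e
      rw [this, h.anti j hj i hi (Ne.symm e), gm, (by omega : (i + 4) / 4 = 1), (by omega : (i + 4) % 4 = i)]
      group
theorem σv : σ (vv γ) = 4012 := by
  rw [vv, h.mul (mul_mem (mul_mem (h.γH _) (h.γH _)) (h.γH _)) (h.γH _), h.mul (mul_mem (h.γH _) (h.γH _)) (h.γH _),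
    h.mul (h.γH _) (h.γH _), h.σγ (by norm_num), h.σγ (by norm_num), h.σγ (by norm_num), h.σγ (by norm_num)]
  decide
theorem σd {i : ℕ} (hi : i < 5) : σ (dl γ i) = gc i := by
  unfold dl; split_ifs with c
  · exact h.σγ c
  · rw [h.σv, (by omega : i = 4)]; rfl
theorem d2 (i : ℕ) : dl γ i * dl γ i = 1 := by unfold dl; split_ifs; exacts [h.γ2 _, h.v2]
theorem gv {i : ℕ} (hi : i < 4) : γ i * vv γ = z * (vv γ * γ i) := by
  have := h.actv (h.γH i)
  rw [h.σγ hi, (cenQ.2.2.2 i hi).1, pow_one] at this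
  rw [← mul_assoc, ← this]; group
theorem dan {i j : ℕ} (hi : i < 5) (hj : j < 5) (n : i ≠ j) : dl γ i * dl γ j = z * (dl γ j * dl γ i) := by
  unfold dl; split_ifs with a b b
  · exact h.anti i a j b n
  · exact h.gv a
  · rw [h.gv b, h.zz]
  · omega
theorem actd {x : G} (hx : x ∈ C1[z]) {i : ℕ} (hi : i < 5) :
    x * dl γ i * x⁻¹ = z ^ s5 (σ x) i * dl γ (p5 (σ x) i) := by
  unfold s5 p5
  split_ifs with c
  · simp only [dl, c, Nat.mod_lt _ (by norm_num : 0 < 4), if_true]; exact h.act x hx i c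
  · simp only [dl, c, lt_irrefl, if_false]; exact h.actv hx
theorem dd {i j : ℕ} (hi : i < 5) (hj : j < 5) (n : i ≠ j) : dl γ i * dl γ j * (dl γ i * dl γ j) = z := by
  calc _ = dl γ i * dl γ j * (z * (dl γ j * dl γ i)) := by rw [← h.dan hi hj n]
    _ = z * (dl γ i * (dl γ j * dl γ j) * dl γ i) := by
      rw [← mul_assoc, mem_centralizer_singleton_iff.1 (mul_mem (h.dH i) (h.dH j))]; group
    _ = z := by rw [h.d2, mul_one, h.d2, mul_one]
theorem mz2 {x : G} (hx : x ∈ C1[z]) : x * z * (x * z) = x * x := by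
  rw [mul_assoc, ← mul_assoc z, ← mem_centralizer_singleton_iff.1 hx, mul_assoc x z, h.z2, mul_one]
theorem Einv {x : G} (hx : x ∈ C1[z]) (x2 : x * x = 1) (he : σ x ∈ LE) : σ x = 1672 ∨ ∃ i < 5, σ x = gc i := by
  rcases (by decide +kernel : ∀ a ∈ LE, a = 1672 ∨ (∃ i < 5, a = gc i) ∨
    ∃ i < 5, ∃ j < 5, i ≠ j ∧ a = mu (gc i) (gc j)) _ he with e | e | ⟨i, hi, j, hj, n, e⟩
  · exact .inl e
  · exact .inr e
  · rw [← h.σd hi, ← h.σd hj, ← h.mul (h.dH i) (h.dH j)] at e
    have hy := mul_mem (h.dH i) (h.dH j)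
    rcases h.ker hx hy e with rfl | rfl
    · exact absurd ((h.dd hi hj n).symm.trans x2) h.z1
    · rw [h.mz2 hy] at x2; exact absurd ((h.dd hi hj n).symm.trans x2) h.z1
theorem inI {x : G} (hx : x ∈ C1[z]) (x2 : x * x = 1) : σ x ∈ LI :=
  memI _ (h.inL hx) (by rw [← h.mul hx hx, x2, h.one]) (h.Einv hx x2)
theorem okk {x y : G} (hx : x ∈ C1[z]) (hy : y ∈ C1[z]) (c : x * y = y * x) : ok (σ x) (σ y) = true := by
  simp only [ok, Bool.and_eq_true, beq_iff_eq, List.all_eq_true, List.mem_range, Bool.or_eq_true, bne_iff_ne]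
  refine ⟨by rw [← h.mul hx hy, c, h.mul hy hx], fun i hi => or_iff_not_imp_left.2 fun e => ?_⟩
  rw [not_not, ← h.σd hi] at e
  have e1 : y * dl γ i * y⁻¹ = dl γ i := by
    rw [mul_inv_eq_iff_eq_mul]
    rcases h.ker hx (h.dH i) e with rfl | rfl
    · exact c.symm
    · rw [mul_assoc, ← mem_centralizer_singleton_iff.1 hy, ← mul_assoc, ← mul_assoc, mul_left_inj] at c; exact c.symm
  rw [h.actd hy hi] at e1
  have p : p5 (σ y) i < 5 := by unfold p5; split_ifs <;> omega
  have s : s5 (σ y) i < 2 := by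
    have := dg_lt (σ y) i
    unfold s5 chi; split_ifs <;> omega
  by_contra s0
  rw [(by omega : s5 (σ y) i = 1), pow_one] at e1
  by_cases q : p5 (σ y) i = i
  · rw [q] at e1; exact h.z1 (by simpa using e1)
  · have := h.dan p hi q
    rw [← e1, ← mul_assoc, mem_centralizer_singleton_iff.1 (h.dH _)] at this
    simp only [mul_assoc, h.d2, mul_one, h.z2] at this
    exact h.z1 this
theorem sqz' {t : G} (ht : t ∈ C1[z]) (t2 : t * t = 1) (n : σ t ∉ LT) : ∃ y ∈ C1[z], y * y = z ∧ y * t = t * y := by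
  obtain ⟨i, hi, j, hj, ij, pi, pj, s⟩ := sqz _ (h.inL ht) (by rw [← h.mul ht ht, t2, h.one]) n
  refine ⟨_, mul_mem (h.dH i) (h.dH j), h.dd hi hj ij, (mul_inv_eq_iff_eq_mul.1 ?_).symm⟩
  calc t * (dl γ i * dl γ j) * t⁻¹ = t * dl γ i * t⁻¹ * (t * dl γ j * t⁻¹) := by group
    _ = _ := by
      rw [h.actd ht hi, h.actd ht hj, pi, pj, s, mul_assoc, ← mul_assoc (dl γ i), h.cz (h.dH i), ← mul_assoc, ← mul_assoc,
        ← pow_add, h.zp, (by omega : (s5 (σ t) j + s5 (σ t) j) % 2 = 0), pow_zero, one_mul]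
/-- `x ∼ xz` -/
theorem cjz {x : G} (hx : x ∈ C1[z]) (a : σ x ∈ LAB) (n : σ x ∉ LZ) : ∃ e ∈ C1[z], e * x * e⁻¹ = x * z := by
  obtain ⟨i, hi, j, hj, ij, pi, pj, s⟩ := swz _ a n
  have he := mul_mem (h.γH i) (h.γH j)
  have : x * (γ i * γ j) * x⁻¹ = z * (γ i * γ j) := by
    calc x * (γ i * γ j) * x⁻¹ = x * γ i * x⁻¹ * (x * γ j * x⁻¹) := by group
      _ = _ := by
        rw [h.act x hx i hi, h.act x hx j hj, gm, gm, pi, pj, s, mul_assoc, ← mul_assoc (γ j), h.cz (h.γH j),
          ← mul_assoc, ← mul_assoc, ← pow_add, h.zp, (by omega : (dg (σ x) j / 4 + dg (σ x) j / 4) % 2 = 0), pow_zero,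
          one_mul, h.anti j hj i hi ij.symm]
  refine ⟨_, inv_mem he, ?_⟩
  generalize γ i * γ j = e at *
  rw [mul_inv_eq_iff_eq_mul] at this
  rw [inv_inv, mul_assoc, this, mul_assoc, ← mul_assoc, mem_centralizer_singleton_iff.1 (inv_mem he), mul_assoc, inv_mul_cancel_left,
    mem_centralizer_singleton_iff.1 hx]
theorem E16 (F : Subgroup G) (hF : F ≤ C1[z]) (c : #F = 16) (e : ∀ x ∈ F, x * x = 1) {t : G} (ht : t ∈ F) :
    σ t ∈ LT := by
  have cm : ∀ x ∈ F, ∀ y ∈ F, x * y = y * x := fun x hx y hy => by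
    rw [← inv_eq_of_mul_eq_one_right (e _ (mul_mem hx hy)), mul_inv_rev, inv_eq_of_mul_eq_one_right (e _ hx),
      inv_eq_of_mul_eq_one_right (e _ hy)]
  have ex : ∀ l : List ℕ, l.length ≤ 4 → ∃ x ∈ F, σ x ∉ l := fun l hl => by
    by_contra hn
    push Not at hn
    have := (Set.ncard_le_ncard (s := (F : Set G)) (t := {x | x ∈ C1[z] ∧ σ x ∈ l}) fun x hx => ⟨hF hx, hn x hx⟩).trans (h.fib_le l)
    have e : (F : Set G).ncard = 16 := c
    omega
  have k : ∀ x ∈ F, ∀ y ∈ F, ok2 (σ x) (σ y) = true := fun x hx y hy => by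
    rw [ok2, h.okk (hF hx) (hF hy) (cm x hx y hy), h.okk (hF hy) (hF hx) (cm y hy x hx)]; rfl
  have i : ∀ x ∈ F, σ x ∈ LI := fun x hx => h.inI (hF hx) (e x hx)
  have i' : ∀ x ∈ F, mem (σ x) LI = true := fun x hx => mem_iff.2 (i x hx)
  obtain ⟨a, ha, na⟩ := ex [1672, σ t] (by simp)
  obtain ⟨b, hb, nb⟩ := ex [1672, σ t, σ a, mu (σ t) (σ a)] (by simp)
  have E := List.all_eq_true.1 e16_eq _ (i t ht)
  rw [Bool.or_eq_true, mem_iff] at E
  refine E.resolve_right fun E => ?_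
  have ta := mul_mem ht ha
  have tb := mul_mem ht hb
  have ab := mul_mem ha hb
  have tab := mul_mem ht ab
  have E := List.all_eq_true.1 E (σ a) (List.mem_filter.2 ⟨i a ha, by
    rw [← h.mul (hF ht) (hF ha), k _ ht _ ha, i' _ ta]; rfl⟩)
  simp only [List.mem_cons, List.not_mem_nil, or_false, not_or] at na nb
  simp only [Bool.or_eq_true, beq_iff_eq, na.1, na.2, false_or] at E
  have E := List.all_eq_true.1 E (σ b) (List.mem_filter.2 ⟨i b hb, by
    rw [← h.mul (hF ht) (hF hb), ← h.mul (hF ha) (hF hb), k _ ht _ hb, k _ ha _ hb, i' _ tb, i' _ ab]; rfl⟩)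
  simp only [Bool.or_eq_true, beq_iff_eq, nb.1, nb.2.1, nb.2.2.1, nb.2.2.2, false_or] at E
  rw [← h.mul (hF ha) (hF hb), ← h.mul (hF ht) (hF ab), ← h.mul (hF ht) (hF ha), ← h.mul (hF ht) (hF hb),
    i' _ tab, k _ ta _ hb, k _ tb _ ha, k _ ab _ ht, k _ ta _ tb, k _ tab _ ht, k _ tab _ ha, k _ tab _ hb] at E
  exact absurd E (by decide)

end Cl
end Cfsg.Agent.A34
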