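import Cfsg.Agent.A34.A
import Cfsg.Agent.Low.Minus4

/-! S3237, part T1: Clifford coordinates of `C(z)` (`exists_cl`) from the action on the five singular vectors of
`2^{1+4}_-`. -/
set_option autoImplicit false
set_option linter.unusedSectionVars false
set_option linter.unusedVariables false
namespace Cfsg.Agent.A34
open Subgroup BG PLocal Low.Min4

theorem t1_fix : ∀ g : Equiv.Perm (Fin 5), g * g * (g * g) = 1 → g * g ≠ 1 → ∀ s : Equiv.Perm (Fin 5), s * s = 1 →
    g * s * (g * s) * (g * s) = 1 → ∃ p, g p = p ∧ s p = p := by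
  decide +kernel

theorem t1_rk {P : Type*} [Group P] [Finite P] (h32 : Nat.card P = 32)
    (hm : ∀ A : Subgroup P, IsElementaryAbelian 2 A → Nat.card A ≠ 8) (A : Subgroup P) (hA : IsElementaryAbelian 2 A) :
    Nat.card A ≤ 4 := by
  have hd : Nat.card A ∣ 2 ^ 5 := A.card_subgroup_dvd_card.trans (by rw [h32]; rfl)
  obtain ⟨k, hk, e⟩ := (Nat.dvd_prime_pow Nat.prime_two).1 hd
  by_contra hn
  have h3 : 3 ≤ k := by
    by_contra h3
    interval_cases k <;> omega
  obtain ⟨K, hK⟩ := Sylow.exists_subgroup_card_pow_prime (G := A) 2 (n := 3) (e ▸ pow_dvd_pow 2 h3)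
  refine hm (K.map A.subtype) ⟨⟨⟨?_⟩⟩, ?_⟩ (by rw [card_map_of_injective A.subtype_injective, hK]; rfl)
  · rintro ⟨_, x, hx, rfl⟩ ⟨_, y, hy, rfl⟩
    exact Subtype.ext (congrArg A.subtype (hA.1.is_comm.comm x y))
  · rintro _ ⟨x, hx, rfl⟩
    exact hA.2 _ x.2

theorem t1_span {P : Type*} [Group P] [Finite P] {z : P} (h : M4 z) (b : Fin 4 → h.Sg) (hb : Function.Injective b) :
    Submodule.span (ZMod 2) (Set.range fun i => (b i).1) = ⊤ := by
  have hB : ∀ i j, h.es.B (b i).1 (b j).1 = if i = j then 0 else 1 := fun i j => by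
    split_ifs with hij
    · rw [hij, h.es.isAlt.self_eq_zero]
    · exact h.B_Sg fun e1 => hij (hb e1)
  have hli : LinearIndependent (ZMod 2) (fun i => (b i).1) := Fintype.linearIndependent_iff.2 fun c hc => by
    have : ∀ j, ∑ i, c i * (if i = j then 0 else 1) = 0 := fun j => by
      have := congrArg (fun v => h.es.B v (b j).1) hc
      simpa only [map_sum, map_smul, LinearMap.sum_apply, LinearMap.smul_apply, hB, smul_eq_mul, map_zero,
        LinearMap.zero_apply] using this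
    clear hc
    revert c
    decide
  refine hli.span_eq_top_of_card_eq_finrank' ?_
  rw [h.es.finrank_eq (n := 4) h.card, Fintype.card_fin]

/-- the abstract step: a group `H` over `E = 2^{1+4}_-` with quotient `S₄` fixes one singular vector -/
theorem t1_act {H : Type*} [Group H] [Finite H] (E : Subgroup H) [E.Normal] {ζ : E} (h : M4 ζ)
    (hCE : centralizer (E : Set H) ≤ E) (e : (H ⧸ E) ≃* Equiv.Perm (Fin 4)) :
    ∃ b : Fin 4 → h.Sg, Function.Injective b ∧
      (∀ (g : H) i, ∃ j, h.Phi (MulAut.conjNormal g) (b i) = b j) ∧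
      ∀ g : H, (∀ i, h.Phi (MulAut.conjNormal g) (b i) = b i) → g ∈ E := by
  classical
  let e5 : h.Sg ≃ Fin 5 := Finite.equivFinOfCardEq h.card_Sg
  let ρ : H →* Equiv.Perm h.Sg := h.Phi.comp MulAut.conjNormal
  let ψ : H →* Equiv.Perm (Fin 5) := (e5.permCongrHom : _ →* _).comp ρ
  have hψ : ∀ g x, ψ g x = e5 (ρ g (e5.symm x)) := fun g x => rfl
  have kρ : ∀ g, ρ g = 1 ↔ g ∈ E := fun g => by
    have : ρ g = 1 ↔ MulAut.conjNormal g ∈ h.Phi.ker := Iff.rfl
    rw [this, h.ker_Phi]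
    constructor
    · rintro ⟨x, hx⟩
      have : (x : H)⁻¹ * g ∈ E := hCE (mem_centralizer_iff.2 fun y hy => by
        have := congrArg Subtype.val (DFunLike.congr_fun hx ⟨y, hy⟩)
        simp only [MulAut.conj_apply, coe_mul, coe_inv, MulAut.conjNormal_apply] at this
        calc y * ((x : H)⁻¹ * g) = (x : H)⁻¹ * ((x : H) * y * (x : H)⁻¹) * g := by group
          _ = _ := by rw [this]; group)
      simpa using E.mul_mem x.2 this
    · intro hg
      exact ⟨⟨g, hg⟩, MulEquiv.ext fun x => Subtype.ext (by simp)⟩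
  have kψ : ∀ g, ψ g = 1 ↔ g ∈ E := fun g => by
    rw [← kρ]
    exact MulEquiv.map_eq_one_iff e5.permCongrHom
  let f : H →* Equiv.Perm (Fin 4) := (e : _ →* _).comp (QuotientGroup.mk' E)
  have kf : ∀ g, f g = 1 ↔ g ∈ E := fun g => by
    rw [← QuotientGroup.eq_one_iff]
    exact MulEquiv.map_eq_one_iff e
  have sf : Function.Surjective f := e.surjective.comp (QuotientGroup.mk'_surjective E)
  obtain ⟨g0, hg0⟩ := sf (finRotate 4)
  obtain ⟨s0, hs0⟩ := sf (Equiv.swap 0 (finRotate 4 0))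
  obtain ⟨p, hp1, hp2⟩ := t1_fix (ψ g0)
    (by rw [← map_mul, ← map_mul, kψ, ← kf]; simp only [map_mul, hg0]; decide)
    (by rw [← map_mul, Ne, kψ, ← kf]; simp only [map_mul, hg0]; decide) (ψ s0)
    (by rw [← map_mul, kψ, ← kf]; simp only [map_mul, hs0]; decide)
    (by rw [← map_mul, ← map_mul, ← map_mul, kψ, ← kf]; simp only [map_mul, hg0, hs0]; decide)
  have hp : ∀ g, ψ g p = p := fun g => by
    let K : Subgroup H := (MulAction.stabilizer (Equiv.Perm (Fin 5)) p).comap ψ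
    have hK : K.map f = ⊤ := by
      rw [eq_top_iff, ← Equiv.Perm.closure_cycle_adjacent_swap (isCycle_finRotate (n := 2)) support_finRotate 0,
        closure_le]
      rintro _ (rfl | rfl)
      · exact ⟨g0, hp1, hg0⟩
      · exact ⟨s0, hp2, hs0⟩
    obtain ⟨k, hk, e1⟩ : f g ∈ K.map f := hK ▸ mem_top _
    have h1 : k⁻¹ * g ∈ K := by
      have : ψ (k⁻¹ * g) = 1 := by rw [kψ, ← kf, map_mul, map_inv, e1, inv_mul_cancel]
      show ψ (k⁻¹ * g) p = p
      rw [this]; rfl
    have : g ∈ K := by simpa using K.mul_mem hk h1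
    exact this
  refine ⟨fun i => e5.symm (p.succAbove i), e5.symm.injective.comp Fin.succAbove_right_injective, fun g i => ?_,
    fun g hg => ?_⟩
  · obtain ⟨j, hj⟩ := Fin.exists_succAbove_eq (x := ψ g (p.succAbove i)) (y := p) fun e1 =>
      p.succAbove_ne i ((ψ g).injective (e1.trans (hp g).symm))
    exact ⟨j, by beta_reduce; rw [hj, hψ, Equiv.symm_apply_apply]; rfl⟩
  · rw [← kψ]
    ext x
    by_cases hx : x = p
    · rw [hx, hp]; rfl
    · obtain ⟨j, rfl⟩ := Fin.exists_succAbove_eq hx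
      have : ρ g (e5.symm (p.succAbove j)) = e5.symm (p.succAbove j) := hg j
      rw [hψ, this, Equiv.apply_symm_apply]; rfl

theorem exists_cl {G : Type*} [Group G] [Finite G] (z : G) (hz : orderOf z = 2)
    (E : Subgroup ↥(Subgroup.centralizer ({z} : Set G))) [hEn : E.Normal] (hE : Cfsg.IsExtraspecial 2 ↥E)
    (hE32 : Nat.card ↥E = 32)
    (hEminus : ∀ A : Subgroup ↥E, Cfsg.IsElementaryAbelian 2 A → Nat.card ↥A ≠ 8)
    (hCE : Subgroup.centralizer (E : Set ↥(Subgroup.centralizer ({z} : Set G))) ≤ E)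
    (e : (↥(Subgroup.centralizer ({z} : Set G)) ⧸ E) ≃* Equiv.Perm (Fin 4)) : ∃ γ σ, Cl z γ σ := by
  obtain ⟨ζ, h⟩ := M4.of hE hE32 (t1_rk hE32 hEminus)
  obtain ⟨b, hb, hact, hker⟩ := t1_act E h hCE e
  have z1 : z ≠ 1 := fun e1 => by rw [e1, orderOf_one] at hz; omega
  have zz : z * z = 1 := by rw [← sq, ← hz, pow_orderOf_eq_one]
  have zH : z ∈ C1[z] := mem_centralizer_singleton_iff.2 rfl
  let ι : E →* G := (centralizer ({z} : Set G)).subtype.comp E.subtype
  have ιi : Function.Injective ι := Subtype.val_injective.comp Subtype.val_injective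
  have pw : ∀ x ∈ zpowers ζ, x = 1 ∨ x = ζ := fun x hx => by
    obtain ⟨s, rfl⟩ := h.es.exists_ez hx
    rcases z2 s with rfl | rfl
    · exact .inl h.es.ez_zero
    · exact .inr h.es.ez_one
  have hζ : ι ζ = z := by
    have hc : (⟨z, zH⟩ : C1[z]) ∈ centralizer (E : Set C1[z]) := mem_centralizer_iff.2 fun y hy =>
      Subtype.ext (mem_centralizer_singleton_iff.1 y.2)
    have : (⟨⟨z, zH⟩, hCE hc⟩ : E) ∈ zpowers ζ := by
      rw [← h.cen, mem_center_iff]
      intro y
      exact Subtype.ext (mem_centralizer_iff.1 hc y y.2)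
    rcases pw _ this with e1 | e1
    · exact absurd (congrArg ι e1) (by simpa [ι] using z1)
    · exact congrArg ι e1.symm
  have hζ' : ∀ x, z * ι x = ι (ζ * x) := fun x => by rw [map_mul, hζ]
  let c : Fin 4 → E := fun i => h.es.out (b i).1
  have hc : ∀ i, h.es.π (c i) = (b i).1 := fun i => h.es.mk_out _
  let γ : ℕ → G := fun i => ι (c ⟨i % 4, Nat.mod_lt _ (by norm_num)⟩)
  have hγ : ∀ i : Fin 4, γ i = ι (c i) := fun i => by
    simp only [γ, Nat.mod_eq_of_lt i.2]
  have cj : ∀ (g : C1[z]) (x : E), ι (MulAut.conjNormal g x) = g * ι x * (g : G)⁻¹ := fun g x => by simp [ι]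
  have hd : ∀ (g : G) (i : ℕ), ∃ d < 8, g ∈ C1[z] → i < 4 → g * γ i * g⁻¹ = gm z γ d := fun g i => by
    by_cases hg : g ∈ C1[z]
    swap
    · exact ⟨0, by norm_num, fun a => absurd a hg⟩
    by_cases hi : i < 4
    swap
    · exact ⟨0, by norm_num, fun _ a => absurd a hi⟩
    obtain ⟨j, hj⟩ := hact ⟨g, hg⟩ ⟨i, hi⟩
    have h1 : h.es.π (c j) = h.es.π (MulAut.conjNormal (⟨g, hg⟩ : C1[z]) (c ⟨i, hi⟩)) := by
      rw [← h.act_π, hc, hc, ← hj]; rfl
    have h2 : g * γ i * g⁻¹ = ι (MulAut.conjNormal (⟨g, hg⟩ : C1[z]) (c ⟨i, hi⟩)) := by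
      rw [cj, ← hγ]
    rw [h2]
    rcases pw _ (h.es.mk_eq_mk.1 h1) with e1 | e1
    · refine ⟨j, by omega, fun _ _ => ?_⟩
      rw [gm, Nat.div_eq_of_lt j.2, Nat.mod_eq_of_lt j.2, pow_zero, one_mul, hγ, ← inv_mul_eq_one.1 e1]
    · refine ⟨j + 4, by omega, fun _ _ => ?_⟩
      rw [gm, show ((j : ℕ) + 4) / 4 = 1 by omega, show ((j : ℕ) + 4) % 4 = j by omega, pow_one, hγ, hζ',
        ← mem_center_iff.1 h.es.cen, ← e1, mul_inv_cancel_left]
  choose d hd8 hd using hd
  refine ⟨γ, fun g => d g 0 + 8 * d g 1 + 64 * d g 2 + 512 * d g 3, zz, z1, ?_, fun i => (c _).1.2, fun i => ?_,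
    fun i hi j hj hij => ?_, fun g => ?_, fun g hg i hi => ?_, fun g hg hi => ?_⟩
  · rw [card_eq_card_quotient_mul_card_subgroup E, hE32, Nat.card_congr e.toEquiv]
    simp [Fintype.card_perm, Nat.factorial]
  · rw [← map_mul, ← sq, h.es.pw_eq_zero.1 (by rw [hc]; exact (b _).2.2), map_one]
  · have h1 := h.es.ez_B (c ⟨i, hi⟩) (c ⟨j, hj⟩)
    rw [hc, hc, h.B_Sg fun e1 => hij (congrArg Fin.val (hb e1)), h.es.ez_one] at h1
    rw [hγ ⟨i, hi⟩, hγ ⟨j, hj⟩, ← map_mul, ← map_mul, hζ', h1, commutatorElement_def]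
    congr 1; group
  · have := hd8 g 0; have := hd8 g 1; have := hd8 g 2; have := hd8 g 3; omega
  · rw [hd g i hg hi]
    congr 1
    have := hd8 g 0; have := hd8 g 1; have := hd8 g 2; have := hd8 g 3
    interval_cases i <;> simp only [dg] <;> omega
  · have h1 : ∀ i : Fin 4, MulAut.conjNormal (⟨g, hg⟩ : C1[z]) (c i) = c i := fun i => ιi (by
      rw [cj, ← hγ]
      show g * _ * g⁻¹ = _
      rw [hi i i.2, mul_inv_cancel_right])
    have hE' : (⟨g, hg⟩ : C1[z]) ∈ E := hker _ fun i => Subtype.ext (by rw [h.Phi_val, ← hc, h.act_π, h1])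
    have h2 : (⟨⟨g, hg⟩, hE'⟩ : E) ∈ center E := by
      rw [h.es.mem_center_iff]
      have : h.es.B (h.es.π ⟨⟨g, hg⟩, hE'⟩) = 0 := LinearMap.ext_on_range (t1_span h b hb) fun i => by
        rw [← hc, LinearMap.zero_apply, h.es.B_eq_zero]
        refine ιi ?_
        rw [map_mul, map_mul, ← hγ]
        exact hi i i.2
      intro v
      rw [this]; rfl
    rcases pw _ (h.cen ▸ h2) with e1 | e1
    · exact .inl (by simpa [ι] using congrArg ι e1)
    · exact .inr ((congrArg ι e1).trans hζ)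

end Cfsg.Agent.A34
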