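import Cfsg.Agent.A34.M2

/-! S3237: from the Clifford frame to the abstract frame. -/
set_option autoImplicit false
set_option linter.unusedSectionVars false
set_option maxRecDepth 100000
namespace Cfsg.Agent.A34
open Subgroup BG PLocal

variable {G : Type*} [Group G] [Finite G] {z : G} {γ : ℕ → G} {σ : G → ℕ}

theorem cjT2 : ∀ a ∈ LAB, a ∉ LZ → ∀ b ∈ LAB, b ∉ LZ → ∃ h ∈ L, mu h a = mu b h := by decide +kernel

namespace Cl
variable (h : Cl z γ σ)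
include h

theorem inZ {x : G} (hx : x ∈ C1[z]) : σ x ∈ LZ ↔ x = 1 ∨ x = z ∨ x = vv γ ∨ x = vv γ * z := by
  constructor
  · intro e
    rcases (by simpa [LZ] using e : σ x = 1672 ∨ σ x = 4012) with e | e
    · exact (h.ker1 hx e).imp_right .inl
    · exact .inr (.inr (h.ker hx h.vH (e.trans h.σv.symm)))
  · rintro (rfl | rfl | rfl | rfl)
    · rw [h.one]; decide
    · rw [h.σz]; decide
    · rw [h.σv]; decide
    · rw [h.mulz h.vH, h.σv]; decide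
theorem exc : ∃ c ∈ C1[z], c * c = 1 ∧ σ c ∈ LM ∧ σ c ∉ LQ := by
  obtain ⟨c, hc, e⟩ := h.surj (by decide +kernel : 1665 ∈ L)
  rcases h.ker1 (mul_mem hc hc) (by rw [h.mul hc hc, e]; decide +kernel) with a | a
  · exact ⟨c, hc, a, by rw [e]; decide +kernel, by rw [e]; decide +kernel⟩
  · have e2 : σ (c * vv γ) = mu 1665 4012 := by rw [h.mul hc h.vH, e, h.σv]
    refine ⟨_, mul_mem hc h.vH, ?_, by rw [e2]; decide +kernel, by rw [e2]; decide +kernel⟩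
    have := h.actv hc
    rw [e, (by decide +kernel : chi 1665 = 1), pow_one, mul_inv_eq_iff_eq_mul] at this
    calc c * vv γ * (c * vv γ) = z * vv γ * c * (c * vv γ) := by rw [← this]
      _ = z * vv γ * (c * c) * vv γ := by group
      _ = 1 := by
        rw [a, mul_assoc z, mem_centralizer_singleton_iff.1 h.vH, h.zz, h.v2]
theorem invAB {t : G} (ht : t ∈ C1[z]) (t2 : t * t = 1) (hT : σ t ∈ LT) : σ t ∈ LAB := by
  by_cases e : σ t ∈ LE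
  · rcases h.Einv ht t2 e with e | ⟨i, hi, e⟩
    · rw [e]; decide
    · by_cases c : i < 4
      · exact absurd (e ▸ hT) (cenQ.2.2.2 i c).2.1
      · rw [e, (by omega : i = 4)]; decide
  · exact cenQ.2.1 _ hT (by rw [← h.mul ht ht, t2, h.one]) e

theorem hs : ∃ (v b c : G) (T A B Q M S : Subgroup G), Hs z v b c T A B Q M S := by
  obtain ⟨A, mA, cA⟩ := h.pre LA cloA (by decide +kernel)
  obtain ⟨B, mB, cB⟩ := h.pre LB cloB (by decide +kernel)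
  obtain ⟨T, mT, cT⟩ := h.pre LT cloT (by decide +kernel)
  obtain ⟨Q, mQ, cQ⟩ := h.pre LQ cloQ (by decide +kernel)
  obtain ⟨M, mM, cM⟩ := h.pre LM cloM (by decide +kernel)
  obtain ⟨S, mS, cS⟩ := h.pre LS cloS (by decide +kernel)
  obtain ⟨c, hc, c2, cm, cq⟩ := h.exc
  obtain ⟨s1, s2, s3, s4, s5, s6, s7, s8, s9, s10⟩ := subs
  have mU : ∀ x, x ∈ A ⊓ B ↔ x ∈ C1[z] ∧ σ x ∈ LZ := fun x => by
    rw [mem_inf, mA, mB]
    exact ⟨fun e => ⟨e.1.1, by simpa [LZ] using s8 _ e.1.2 e.2.2⟩, fun e =>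
      ⟨⟨e.1, (by decide : ∀ a ∈ LZ, a ∈ LA) _ e.2⟩, e.1, (by decide : ∀ a ∈ LZ, a ∈ LB) _ e.2⟩⟩
  have mAB : ∀ x ∈ C1[z], σ x ∈ LAB ↔ x ∈ A ∨ x ∈ B := fun x hx => by simp [LAB, mA, mB, hx]
  have g0 : σ (γ 0) = 4008 := h.σγ (by norm_num)
  have cH : ∀ {x y : G}, x ∈ C1[z] → y ∈ C1[z] → x * y * x⁻¹ ∈ C1[z] := fun hx hy => mul_mem (mul_mem hx hy) (inv_mem hx)
  have vz := mem_centralizer_singleton_iff.1 h.vH
  have chi2 : ∀ a, chi a = 0 ∨ chi a = 1 := fun a => by unfold chi; omega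
  have hv : ∀ x ∈ C1[z], x * vv γ * x⁻¹ = vv γ ∨ x * vv γ * x⁻¹ = vv γ * z := fun x hx => by
    rw [h.actv hx]; rcases chi2 (σ x) with e | e <;> simp [e, vz]
  have Tv : ∀ x ∈ T, x * vv γ = vv γ * x := fun x hx => by
    have := h.actv ((mT x).1 hx).1
    rwa [s9 _ ((mT x).1 hx).2, pow_zero, one_mul, mul_inv_eq_iff_eq_mul] at this
  have nQ : ∀ k ∈ C1[z], ∀ x ∈ Q, k * x * k⁻¹ ∈ Q := fun k hk x hx => (mQ _).2 ⟨cH hk ((mQ x).1 hx).1, by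
    rw [h.conj hk ((mQ x).1 hx).1]; exact nTQ _ (iv_spec _ (h.inL hk)).2 _ ((mQ x).1 hx).2⟩
  have TQ : T ≤ Q := fun x hx => (mQ x).2 ⟨((mT x).1 hx).1, s3 _ ((mT x).1 hx).2⟩
  refine ⟨vv γ, γ 0, c, T, A, B, Q, M, S, h.z2, h.z1, h.cH, h.v2, fun e => ?_, fun e => ?_, fun x => ?_,
    fun x hx => (mT x).2 ⟨((mA x).1 hx).1, s1 _ ((mA x).1 hx).2⟩,
    fun x hx => (mT x).2 ⟨((mB x).1 hx).1, s2 _ ((mB x).1 hx).2⟩, TQ,
    fun x hx => (mM x).2 ⟨((mT x).1 hx).1, s4 _ ((mT x).1 hx).2⟩,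
    fun x hx => (mS x).2 ⟨((mQ x).1 hx).1, s5 _ ((mQ x).1 hx).2⟩,
    fun x hx => (mS x).2 ⟨((mM x).1 hx).1, s6 _ ((mM x).1 hx).2⟩, fun x hx => ((mS x).1 hx).1,
    cA, cB, cT, cQ, cM, cS, fun k hk x hx => ?_, nQ,
    fun x hx hm => (mT x).2 ⟨((mQ x).1 hx).1, s7 _ ((mQ x).1 hx).2 ((mM x).1 hm).2⟩, fun x hx => ?_, Tv, hv,
    (mQ _).2 ⟨h.γH 0, by rw [g0]; decide +kernel⟩, fun e => absurd ((mT _).1 e).2 (by rw [g0]; decide +kernel),
    h.γ2 0, by rw [h.actv (h.γH 0), g0, (by decide +kernel : chi 4008 = 1), pow_one, vz],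
    fun x hx => (mB _).2 ⟨cH (h.γH 0) ((mA x).1 hx).1, by
      rw [h.conj (h.γH 0) ((mA x).1 hx).1, g0]; exact swp.1 _ ((mA x).1 hx).2⟩,
    fun x hx => (mA _).2 ⟨cH (h.γH 0) ((mB x).1 hx).1, by
      rw [h.conj (h.γH 0) ((mB x).1 hx).1, g0]; exact swp.2 _ ((mB x).1 hx).2⟩,
    (mM c).2 ⟨hc, cm⟩, fun e => cq ((mQ c).1 e).2, c2,
    fun y hy e => (mT _).2 ⟨mul_mem hy hy, by
      rw [h.mul hy hy]
      exact sq4 _ (h.inL hy) (by rw [← h.mul hy hy, ← h.mul (mul_mem hy hy) (mul_mem hy hy), e, h.one])⟩,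
    fun t ht t2 n => h.sqz' ht t2 fun e => n ((mT t).2 ⟨ht, e⟩), ?_, ?_, fun x hx e => (mU x).2 ⟨hx, ?_⟩,
    fun t ht nt t2 w hw w2 e => ?_, fun x hx e => h.cen x hx fun i hi => e _ ((mQ _).2 ⟨h.γH i, by
      rw [h.σγ hi]; exact (cenQ.2.2.2 i hi).2.2⟩), ?_,
    fun F hF c e t ht => (mT t).2 ⟨hF ht, h.E16 F hF c e ht⟩,
    fun t ht t2 => (mAB t ((mT t).1 ht).1).1 (h.invAB ((mT t).1 ht).1 t2 ((mT t).1 ht).2),
    fun a ha b hb => ?_, fun x hx nx x2 y hy ny => ?_⟩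
  · exact absurd (h.σv.symm.trans (e ▸ h.one)) (by decide)
  · exact absurd (h.σv.symm.trans (e ▸ h.σz)) (by decide)
  · rw [mU]
    refine ⟨fun e => (h.inZ e.1).1 e.2, fun e => ?_⟩
    have hx : x ∈ C1[z] := by
      rcases e with rfl | rfl | rfl | rfl
      exacts [one_mem _, h.zH, h.vH, mul_mem h.vH h.zH]
    exact ⟨hx, (h.inZ hx).2 e⟩
  · have hx' := ((mT x).1 hx).1
    have hy := cH hk hx'
    refine (mT _).2 ⟨hy, chiT _ ((mQ _).1 (nQ k hk x (TQ hx))).2 ((chi2 _).resolve_right fun e => h.z1 ?_)⟩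
    have e1 := h.actv hy
    have e2 : x * (k⁻¹ * vv γ * k⁻¹⁻¹) = k⁻¹ * vv γ * k⁻¹⁻¹ * x := by
      rcases hv _ (inv_mem hk) with a | a <;> rw [a]
      · exact Tv x hx
      · rw [← mul_assoc, Tv x hx, mul_assoc, mem_centralizer_singleton_iff.1 hx', mul_assoc]
    rw [e, pow_one] at e1
    refine mul_right_cancel (b := vv γ) ?_
    rw [← e1, one_mul]
    calc k * x * k⁻¹ * vv γ * (k * x * k⁻¹)⁻¹ = k * (x * (k⁻¹ * vv γ * k⁻¹⁻¹)) * x⁻¹ * k⁻¹ := by group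
      _ = _ := by rw [e2]; group
  · obtain ⟨a, ha, b, hb, e⟩ := s10 _ ((mT x).1 hx).2
    obtain ⟨a', ha', rfl⟩ := h.surj ((by decide +kernel : ∀ a ∈ LA, a ∈ L) a ha)
    obtain ⟨b', hb', rfl⟩ := h.surj ((by decide +kernel : ∀ a ∈ LB, a ∈ L) b hb)
    rw [← h.mul ha' hb'] at e
    rcases h.ker ((mT x).1 hx).1 (mul_mem ha' hb') e with e | e
    · exact ⟨a', (mA _).2 ⟨ha', ha⟩, b', (mB _).2 ⟨hb', hb⟩, e⟩
    · exact ⟨a', (mA _).2 ⟨ha', ha⟩, b' * z, (mB _).2 ⟨mul_mem hb' h.zH, by rwa [h.mulz hb']⟩, by rw [e, mul_assoc]⟩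
  · refine (h.fib_eq L18 (by decide +kernel)).ge.trans' (by rw [len.1]) |>.trans (Set.ncard_le_ncard fun x hx => ?_)
    obtain ⟨a, b⟩ := List.mem_filter.1 hx.2
    simp only [Bool.and_eq_true, beq_iff_eq, Bool.not_eq_true', ← Bool.not_eq_true, mem_iff] at b
    exact ⟨(mT x).2 ⟨hx.1, a⟩, fun e => b.2 ((mU x).1 e).2,
      h.ker1 (mul_mem hx.1 hx.1) (by rw [h.mul hx.1 hx.1, b.1])⟩
  · refine (Set.ncard_le_ncard fun x hx => ?_).trans ((h.fib_le L12).trans (by rw [len.2.1]))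
    refine ⟨hx.1, List.mem_filter.2 ⟨h.inL hx.1, ?_⟩⟩
    rw [beq_iff_eq, ← h.mul hx.1 hx.1]
    rcases hx.2 with e | e <;> rw [e]
    · exact h.σv
    · rw [h.mulz h.vH, h.σv]
  · refine csq _ (h.inL hx) fun b hb => ?_
    obtain ⟨y, hy, rfl⟩ := h.surj hb
    rw [← h.mul hy hy, ← h.mul hx (mul_mem hy hy), e y hy, h.mul (mul_mem hy hy) hx]
  · have ht' := ((mQ t).1 ht).1
    have hw' := ((mT w).1 hw).1
    have nT : σ t ∉ LT := fun a => nt ((mT t).2 ⟨ht', a⟩)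
    rcases h.Einv ht' t2 (cenQ.1 _ ((mQ t).1 ht).2 nT (by rw [← h.mul ht' ht', t2, h.one])) with a | ⟨i, hi, a⟩
    · exact absurd (by rw [a]; decide) nT
    have i4 : i < 4 := by
      by_contra c; exact nT (by rw [a, (by omega : i = 4)]; decide +kernel)
    have := cenQ.2.2.1 _ (h.invAB hw' w2 ((mT w).1 hw).2) i i4 (by rw [← a, ← h.mul hw' ht', e, h.mul ht' hw'])
    have k := h.actv ht'
    rw [a, (cenQ.2.2.2 i i4).1, pow_one, mul_inv_eq_iff_eq_mul] at k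
    have nv : vv γ * t ≠ t * vv γ := fun q => h.z1 (by rw [← q, mul_assoc] at k; simpa using k)
    rcases (h.inZ hw').1 this with q | q | q | q
    · exact .inl q
    · exact .inr q
    · exact absurd (q ▸ e) nv
    · rw [q, mul_assoc, ← mem_centralizer_singleton_iff.1 ht', ← mul_assoc, ← mul_assoc, mul_left_inj] at e
      exact absurd e nv
  · obtain ⟨r, hr, e⟩ := h.surj (by decide +kernel : 1553 ∈ L)
    refine ⟨r, fun x hx => ?_⟩
    have hx' := ((mT x).1 hx).1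
    refine (mU _).2 ⟨mul_mem (mul_mem hx' (cH hr hx')) (cH hr (cH hr hx')), ?_⟩
    rw [h.mul (mul_mem hx' (cH hr hx')) (cH hr (cH hr hx')), h.mul hx' (cH hr hx'), h.conj hr (cH hr hx'),
      h.conj hr hx', e]
    exact r3 _ ((mT x).1 hx).2
  · have ha' := ((mA a).1 ha).1
    have hb' := ((mB b).1 hb).1
    refine (mU _).2 ⟨mul_mem (cH ha' hb') (inv_mem hb'), ?_⟩
    rw [h.mul (cH ha' hb') (inv_mem hb'), h.conj ha' hb', h.inv hb']
    exact com _ ((mA a).1 ha).2 _ ((mB b).1 hb).2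
  · have hx' := ((mT x).1 hx).1
    have hy' : y ∈ C1[z] := hy.elim (fun e => ((mA y).1 e).1) fun e => ((mB y).1 e).1
    have y1 := (mAB y hy').2 hy
    have y2 : σ y ∉ LZ := fun e => ny ((mU y).2 ⟨hy', e⟩)
    obtain ⟨k, hk, e⟩ := cjT2 _ (h.invAB hx' x2 ((mT x).1 hx).2) (fun e => nx ((mU x).2 ⟨hx', e⟩)) _ y1 y2
    obtain ⟨k, hk', rfl⟩ := h.surj hk
    rw [← h.mul hk' hx', ← h.mul hy' hk'] at e
    rcases h.ker (mul_mem hk' hx') (mul_mem hy' hk') e with e | e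
    · exact ⟨k, hk', by rw [e, mul_inv_cancel_right]⟩
    · obtain ⟨d, hd, q⟩ := h.cjz hy' y1 y2
      refine ⟨d⁻¹ * k, mul_mem (inv_mem hd) hk', ?_⟩
      calc d⁻¹ * k * x * (d⁻¹ * k)⁻¹ = d⁻¹ * (k * x * k⁻¹) * d := by group
        _ = d⁻¹ * (y * z) * d := by
          rw [e, mul_assoc y k z, mem_centralizer_singleton_iff.1 hk', ← mul_assoc y, mul_inv_cancel_right]
        _ = y := by rw [← q]; group

end Cl
end Cfsg.Agent.A34
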