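import Cfsg.Agent.A34.A

/-! S3237, step T3: if `z` is not isolated in `C(z)` then the fused frame `Fz` holds. -/
set_option autoImplicit false
namespace Cfsg.Agent.A34
open Subgroup BG PLocal

variable {G : Type*} [Group G] {z v b c : G} {T A B Q M S : Subgroup G}

theorem t3_mem {x y : G} : x ∈ C1[y] ↔ x * y = y * x := mem_centralizer_singleton_iff

theorem t3_conj_mem {x y g : G} (h : x * (g * y * g⁻¹) = g * y * g⁻¹ * x) : g⁻¹ * x * g ∈ C1[y] := by
  rw [t3_mem]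
  calc g⁻¹ * x * g * y = g⁻¹ * (x * (g * y * g⁻¹)) * g := by group
    _ = _ := by rw [h]; group

theorem t3_sq {x y g : G} (h : x * x = y) : g⁻¹ * x * g * (g⁻¹ * x * g) = g⁻¹ * y * g := by
  rw [← h]; group

theorem t3_one {x g : G} (h : g⁻¹ * x * g = 1) : x = 1 := by
  calc x = g * (g⁻¹ * x * g) * g⁻¹ := by group
    _ = 1 := by rw [h]; group

theorem Hs.t3_TH (h : Hs z v b c T A B Q M S) : T ≤ C1[z] := h.TQ.trans (h.QS.trans h.SH)

theorem Hs.t3_vU (h : Hs z v b c T A B Q M S) : v ∈ A ⊓ B := (h.U v).2 (by simp)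

theorem Hs.t3_zU (h : Hs z v b c T A B Q M S) : z ∈ A ⊓ B := (h.U z).2 (by simp)

theorem Hs.t3_vzc (h : Hs z v b c T A B Q M S) : v * z = z * v :=
  t3_mem.1 (h.t3_TH (h.AT h.t3_vU.1))

theorem Hs.t3_U2 (h : Hs z v b c T A B Q M S) {x : G} (hx : x ∈ A ⊓ B) : x * x = 1 := by
  rcases (h.U x).1 hx with rfl | rfl | rfl | rfl
  · simp
  · exact h.z2
  · exact h.v2
  · calc v * z * (v * z) = v * (z * v) * z := by group
      _ = (v * v) * (z * z) := by rw [← h.t3_vzc]; group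
      _ = 1 := by rw [h.v2, h.z2, one_mul]

theorem Hs.t3_I (h : Hs z v b c T A B Q M S) {t : G} (ht : IsConj z t) (hc : Commute t z)
    (tz : t ≠ z) : ∃ g : G, g * z * g⁻¹ ∈ T ∧ g * z * g⁻¹ ≠ z := by
  obtain ⟨g, rfl⟩ := isConj_iff.1 ht
  by_cases hT : g * z * g⁻¹ ∈ T
  · exact ⟨g, hT, tz⟩
  obtain ⟨y, -, hy, hyt⟩ := h.sqz _ (t3_mem.2 hc) (by
    calc _ = g * (z * z) * g⁻¹ := by group
      _ = 1 := by rw [h.z2]; group) hT
  have h1 := h.sq4 _ (t3_conj_mem hyt) (by rw [t3_sq hy, t3_sq h.z2]; group)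
  rw [t3_sq hy] at h1
  refine ⟨g⁻¹, by simpa using h1, fun e => tz ?_⟩
  conv_lhs => rw [← e]
  group

theorem Hs.t3_cv (h : Hs z v b c T A B Q M S) {g : G} (hg : g * z * g⁻¹ ∈ A ⊓ B)
    (hz : g * z * g⁻¹ ≠ z) : IsConj z v := by
  rcases (h.U _).1 hg with e | e | e | e
  · exact absurd (by simpa using e) h.z1
  · exact absurd e hz
  · exact isConj_iff.2 ⟨g, e⟩
  · exact (isConj_iff.2 ⟨g, e⟩).trans (isConj_iff.2 ⟨b, h.bv⟩).symm

variable [Finite G]

theorem Hs.t3_II (h : Hs z v b c T A B Q M S) {g : G} (hg : g * z * g⁻¹ ∈ T)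
    (hz : g * z * g⁻¹ ≠ z) : ∃ x ∈ T, x ∉ A ⊓ B ∧ x * x = 1 := by
  by_contra hne
  push Not at hne
  have hU : g * z * g⁻¹ ∈ A ⊓ B := by
    by_contra hU
    apply hne _ hg hU
    calc _ = g * (z * z) * g⁻¹ := by group
      _ = 1 := by rw [h.z2]; group
  obtain ⟨k, hk⟩ := isConj_iff.1 (h.t3_cv hU hz)
  have hz' : k⁻¹ * z * k ∈ C1[z] := t3_conj_mem (by rw [hk, h.t3_vzc])
  have hbH : b ∈ C1[z] := h.SH (h.QS h.bQ)
  have hvz : v * z ≠ v := by simpa using h.z1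
  set L₀ : Subgroup G := C1[z] ⊓ C1[v] with hL₀
  have m0 : ∀ x ∈ C1[z], x ∈ L₀ ↔ x * v * x⁻¹ = v := by
    intro x hx
    rw [hL₀, mem_inf, t3_mem (y := v), mul_inv_eq_iff_eq_mul]
    exact and_iff_right hx
  have i0 : L₀.relIndex C1[z] = 2 := by
    rw [relIndex_eq_two_iff]
    refine ⟨b, hbH, fun x hx => ?_⟩
    rw [m0 x hx, m0 _ (mul_mem hx hbH)]
    have e : x * b * v * (x * b)⁻¹ = x * v * x⁻¹ * z := by
      calc _ = x * (b * v * b⁻¹) * x⁻¹ := by group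
        _ = x * v * x⁻¹ * (x * z * x⁻¹) := by rw [h.bv]; group
        _ = _ := by rw [t3_mem.1 hx]; group
    rw [e]
    rcases h.hv x hx with e' | e'
    · rw [e']
      exact Or.inr ⟨rfl, hvz⟩
    · rw [e', mul_assoc, h.z2, mul_one]
      exact Or.inl ⟨rfl, hvz⟩
  set L : Subgroup G := L₀.map (MulAut.conj k⁻¹).toMonoidHom with hL
  have hLH : L ≤ C1[z] := by
    rintro _ ⟨x, hx, rfl⟩
    have := t3_conj_mem (g := k) (y := z) (x := x) (by rw [hk]; exact t3_mem.1 hx.2)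
    simpa using this
  have cL : Nat.card L = Nat.card L₀ := card_map_of_injective (MulAut.conj k⁻¹).injective
  have i1 : (L.subgroupOf C1[z]).index = 2 := by
    have e0 := (L₀.subgroupOf C1[z]).card_mul_index
    have e1 := (L.subgroupOf C1[z]).card_mul_index
    rw [Nat.card_congr (subgroupOfEquivOfLe hLH).toEquiv, cL] at e1
    rw [Nat.card_congr (subgroupOfEquivOfLe (inf_le_left : L₀ ≤ C1[z])).toEquiv] at e0
    have i0' : (L₀.subgroupOf C1[z]).index = 2 := i0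
    rw [i0', ← e1] at e0
    exact (Nat.eq_of_mul_eq_mul_left Nat.card_pos e0).symm
  have hU' : k⁻¹ * z * k ∈ A ⊓ B := by
    refine h.csq _ hz' fun y hy => ?_
    obtain ⟨x, hx, e⟩ : y * y ∈ L := mul_self_mem_of_index_two i1 ⟨y, hy⟩
    have e' : y * y = k⁻¹ * x * k := by simpa using e.symm
    rw [e']
    calc k⁻¹ * z * k * (k⁻¹ * x * k) = k⁻¹ * (z * x) * k := by group
      _ = _ := by rw [← t3_mem.1 hx.1]; group
  have hz2 : k⁻¹ * z * k = v ∨ k⁻¹ * z * k = v * z := by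
    rcases (h.U _).1 hU' with e | e | e
    · exact absurd (t3_one e) h.z1
    · refine absurd ?_ h.vz
      rw [← hk]
      conv_lhs => rw [← e]
      group
    · exact e
  have hle := Set.ncard_le_ncard_of_injOn (s := {x | x ∈ T ∧ x ∉ A ⊓ B ∧ (x * x = 1 ∨ x * x = z)})
    (t := {y | y ∈ C1[z] ∧ (y * y = v ∨ y * y = v * z)}) (fun x => k⁻¹ * x * k) (by
      rintro x ⟨hx, hxU, hx2⟩
      have hx2' : x * x = z := hx2.resolve_left (hne x hx hxU)
      refine ⟨t3_conj_mem (by rw [hk]; exact h.Tv x hx), ?_⟩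
      rw [t3_sq hx2']
      exact hz2) (by
      intro x _ y _ e
      simpa using e) (Set.toFinite _)
  have := h.c36
  have := h.c24
  omega

theorem Hs.fz (h : Hs z v b c T A B Q M S) {t : G} (ht : IsConj z t) (hc : Commute t z)
    (tz : t ≠ z) : Fz z v b c T A B Q M S := by
  obtain ⟨g, hg, hz⟩ := h.t3_I ht hc tz
  obtain ⟨x, hx, hxU, hx2⟩ := h.t3_II hg hz
  have e2 : ∀ a, a ∈ A ∨ a ∈ B → a * a = 1 := by
    intro a ha
    by_cases hU : a ∈ A ⊓ B
    · exact h.t3_U2 hU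
    obtain ⟨k, -, rfl⟩ := h.cjT x hx hxU hx2 a ha hU
    calc _ = k * (x * x) * k⁻¹ := by group
      _ = 1 := by rw [hx2]; group
  refine { toHs := h, zv := ?_, eA := fun a ha => e2 a (.inl ha), eB := fun a ha => e2 a (.inr ha) }
  by_contra hzv
  have hU : g * z * g⁻¹ ∉ A ⊓ B := fun hU => hzv (h.t3_cv hU hz)
  have g2 : g * z * g⁻¹ * (g * z * g⁻¹) = 1 := by
    calc _ = g * (z * z) * g⁻¹ := by group
      _ = 1 := by rw [h.z2]; group
  obtain ⟨F, hF, cF, eF, UF⟩ : ∃ F : Subgroup G, g * z * g⁻¹ ∈ F ∧ #F = 16 ∧ (∀ a ∈ F, a * a = 1) ∧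
      A ⊓ B ≤ F := by
    rcases h.inv _ hg g2 with h1 | h1
    · exact ⟨A, h1, h.cA, fun a ha => e2 a (.inl ha), inf_le_left⟩
    · exact ⟨B, h1, h.cB, fun a ha => e2 a (.inr ha), inf_le_right⟩
  have comm : ∀ a ∈ F, ∀ a' ∈ F, a * a' = a' * a := by
    intro a ha a' ha'
    calc a * a' = a' * a' * (a * a') * (a * a) := by rw [eF a ha, eF a' ha']; group
      _ = a' * (a' * a * (a' * a)) * a := by group
      _ = _ := by rw [eF _ (mul_mem ha' ha)]; group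
  have hFT : F.map (MulAut.conj g⁻¹).toMonoidHom ≤ T := by
    refine h.E16 _ ?_ ?_ ?_
    · rintro _ ⟨a, ha, rfl⟩
      simpa using t3_conj_mem (comm a ha _ hF)
    · rw [← cF]
      exact card_map_of_injective (MulAut.conj g⁻¹).injective
    · rintro _ ⟨a, ha, rfl⟩
      rw [← map_mul, eF a ha, map_one]
  have key : ∀ w ∈ A ⊓ B, IsConj v w → g⁻¹ * w * g = v ∨ g⁻¹ * w * g = v * z := by
    intro w hw hvw
    have h1 : g⁻¹ * w * g ∈ T := by simpa using hFT (mem_map_of_mem _ (UF hw))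
    have h2 : IsConj v (g⁻¹ * w * g) := hvw.trans (isConj_iff.2 ⟨g⁻¹, by simp⟩)
    have h3 : g⁻¹ * w * g ∈ A ⊓ B := by
      by_contra h3
      have h4 : g⁻¹ * w * g * (g⁻¹ * w * g) = 1 := by rw [t3_sq (h.t3_U2 hw)]; group
      obtain ⟨k, -, hk⟩ := h.cjT _ hg hU g2 _ (h.inv _ h1 h4) h3
      exact hzv (((isConj_iff.2 ⟨g, rfl⟩).trans (isConj_iff.2 ⟨k, hk⟩)).trans h2.symm)
    rcases (h.U _).1 h3 with e | e | e
    · rw [e] at h2
      exact absurd (isConj_one_left.1 h2) h.v1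
    · rw [e] at h2
      exact absurd h2.symm hzv
    · exact e
  have k1 := key v h.t3_vU (IsConj.refl v)
  have k2 := key (v * z) (mul_mem h.t3_vU h.t3_zU) (isConj_iff.2 ⟨b, h.bv⟩)
  have k3 : g⁻¹ * z * g = (g⁻¹ * v * g)⁻¹ * (g⁻¹ * (v * z) * g) := by group
  have k4 : g⁻¹ * z * g = z := by
    rcases k1 with k1 | k1 <;> rcases k2 with k2 | k2 <;> rw [k1, k2] at k3
    · exact absurd (t3_one (by simpa using k3)) h.z1
    · simpa using k3
    · rw [k3]
      simpa using inv_eq_of_mul_eq_one_right h.z2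
    · exact absurd (t3_one (by simpa using k3)) h.z1
  apply hz
  conv_lhs => rw [← k4]
  group

end Cfsg.Agent.A34
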