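import Cfsg.Agent.A34.A
import Cfsg.Agent.Invol.Transfer

/-! S3237, T4 (helper20): `S` is a Sylow 2-subgroup, and two transfers give a normal subgroup of index 4. -/
set_option autoImplicit false
set_option linter.unusedSectionVars false
namespace Cfsg.Agent.A34
open Subgroup BG CIT

variable {G : Type*} [Group G] [Finite G] {z v b c : G} {T A B Q M S : Subgroup G}

theorem t4_mm {X : Subgroup G} (hi : X.relIndex S = 2) {x y : G} (hx : x ∈ S) (hy : y ∈ S) :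
    x * y ∈ X ↔ (x ∈ X ↔ y ∈ X) :=
  mul_mem_iff_of_index_two (H := X.subgroupOf S) hi (a := ⟨x, hx⟩) (b := ⟨y, hy⟩)

theorem t4_tr (syl : SylowIn 2 S ⊤) {X : Subgroup G} (hi : X.relIndex S = 2) :
    ∃ K : Subgroup G, K.Normal ∧ K.index ∣ 2 ∧ ∀ g ∈ S, g * g = 1 →
      (∀ a, a * g * a⁻¹ ∈ S → (a * g * a⁻¹ ∈ X ↔ g ∈ X)) → (g ∈ K ↔ g ∈ X) := by
  have := Nat.fact_prime_two
  have hn : (X.subgroupOf S).Normal := normal_of_index_eq_two hi
  obtain ⟨_, f, hf⟩ := Invol.exists_hom_of_control S X hn fun x hx y hy => by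
    rw [t4_mm hi (mul_mem (mul_mem hx hy) (inv_mem hx)) (inv_mem hy), t4_mm hi (mul_mem hx hy) (inv_mem hx),
      t4_mm hi hx hy, inv_mem_iff, inv_mem_iff]
    tauto
  refine ⟨f.ker, inferInstance, ?_, fun g hg g2 hc => ?_⟩
  · rw [index_ker, ← hi]
    exact card_subgroup_dvd_card f.range
  · have e := hf g hg fun m a ha => by
      rcases Nat.even_or_odd' m with ⟨k, rfl | rfl⟩
      · simp [pow_mul, pow_two, g2]
      · have e : g ^ (2 * k + 1) = g := by simp [pow_succ, pow_mul, g2]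
        rw [e] at ha ⊢
        rw [t4_mm hi ha (inv_mem hg), inv_mem_iff]
        exact hc a ha
    have o : ¬ 2 ∣ S.index := by simpa using syl.not_dvd
    obtain ⟨k, hk⟩ : Odd S.index := Nat.not_even_iff_odd.1 (mt even_iff_two_dvd.1 o)
    have q : (QuotientGroup.mk (⟨g, hg⟩ : S) : S ⧸ X.subgroupOf S) ^ 2 = 1 := by
      rw [← QuotientGroup.mk_pow, show (⟨g, hg⟩ : S) ^ 2 = 1 from Subtype.ext (by simpa [pow_two] using g2)]
      rfl
    rw [MonoidHom.mem_ker, e, hk, pow_succ, pow_mul, q, one_pow, one_mul, QuotientGroup.eq_one_iff]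
    rfl

theorem t4_ne {g x : G} (h : x ≠ 1) : g * x * g⁻¹ ≠ 1 := fun e => h (by simpa using e)
theorem t4_cen {g x : G} (e : g * x * g⁻¹ = x) : g ∈ C1[x] := mem_cent1.2 (mul_inv_eq_iff_eq_mul.1 e)

namespace Hs
variable (h : Hs z v b c T A B Q M S)
include h

theorem t4_TS : T ≤ S := h.TQ.trans h.QS
theorem t4_zT : z ∈ T := h.AT ((h.U z).2 (.inr (.inl rfl))).1

theorem t4_syl : SylowIn 2 S ⊤ := by
  have := Nat.fact_prime_two
  have i : S.relIndex C1[z] = 3 := by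
    have := card_mul_relIndex h.SH
    rw [h.cS, h.cH] at this; omega
  have s : SylowIn 2 S C1[z] :=
    sylow_mk h.SH (IsPGroup.of_card (n := 8) (by rw [h.cS]; norm_num)) (by rw [i]; decide)
  refine Sylow_subnorm (pHall_subl (le_inf le_top (normG S)) (fun g hg => ?_) s)
  have hg := hg.2
  refine t4_cen ((h.CQ _ (h.SH (conj_mem_of_norm hg (h.t4_TS h.t4_zT))) fun q hq => ?_).resolve_left (t4_ne h.z1))
  have := mem_cent1.1 (h.SH (conj_mem_of_norm' hg (h.QS hq)))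
  calc g * z * g⁻¹ * q = g * (z * (g⁻¹ * q * g)) * g⁻¹ := by group
    _ = _ := by rw [← this]; group

theorem t4_two {y : G} (e : y * y = z) : IsPGroup 2 (zpowers y) :=
  Two.zpowers ⟨2, by rw [show y ^ 2 ^ 2 = y * y * (y * y) by simp [pow_succ, mul_assoc], e, h.z2]⟩

theorem t4_inQ {s t g : G} (hs : s ∈ Q) (sT : s ∉ T) (s2 : s * s = 1) (ht : t ∈ C1[z]) (tT : t ∉ T)
    (e : t = g * s * g⁻¹) : t ∈ Q := by
  have := Nat.fact_prime_two
  have key : ∀ n y : G, y * y = z → n * y * n⁻¹ ∈ C1[z] ⊓ C1[s] → n ∈ C1[z] := fun n y e m => by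
    have e1 : n * y * n⁻¹ * (n * y * n⁻¹) = n * z * n⁻¹ := by rw [conj_mul, e]
    have e2 : n * z * n⁻¹ * (n * z * n⁻¹) = 1 := by rw [conj_mul, h.z2, mul_one, mul_inv_cancel]
    have := h.sq4 _ m.1 (by rw [e1, e2])
    rw [e1] at this
    exact t4_cen ((h.cenQ s hs sT s2 _ this e2
      (mem_cent1.1 (e1 ▸ mul_mem m.2 m.2))).resolve_left (t4_ne h.z1))
  obtain ⟨y0, m0, e0, c0⟩ := h.sqz s (h.SH (h.QS hs)) s2 sT
  obtain ⟨D, hD, le⟩ := Sylow_superset (M := C1[z] ⊓ C1[s]) (zpowers_le.2 ⟨m0, mem_cent1.2 c0⟩) (h.t4_two e0)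
  have hD' : SylowIn 2 D C1[s] :=
    Sylow_subnorm (pHall_subl (le_inf (hD.le.trans inf_le_right) (normG D))
      (fun n hn => mem_inf.2 ⟨key n y0 e0 (hD.le (conj_mem_of_norm hn.2 (le (mem_zpowers y0)))), hn.1⟩) hD)
  obtain ⟨y, -, e1, c1⟩ := h.sqz t ht (by rw [e, conj_mul, s2, mul_one, mul_inv_cancel]) tT
  have m1 : g⁻¹ * y * g⁻¹⁻¹ ∈ C1[s] := mem_cent1.2 (by
    calc g⁻¹ * y * g⁻¹⁻¹ * s = g⁻¹ * (y * (g * s * g⁻¹)) * g := by group
      _ = _ := by rw [← e, c1, e]; group)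
  obtain ⟨k, hk, l⟩ := Sylow_Jsub hD' (zpowers_le.2 m1) (cj_zpowers g⁻¹ y ▸ (h.t4_two e1).cj g⁻¹)
  have m2 := key (k * g⁻¹) y e1 (by
    have := hD.le (l (conj_mem_cj k (mem_zpowers _)))
    rwa [show k * (g⁻¹ * y * g⁻¹⁻¹) * k⁻¹ = k * g⁻¹ * y * (k * g⁻¹)⁻¹ by group] at this)
  have := h.nQ _ (inv_mem m2) s hs
  rwa [show (k * g⁻¹)⁻¹ * s * (k * g⁻¹)⁻¹⁻¹ = g * k⁻¹ * (s * k) * g⁻¹ by group, ← mem_cent1.1 hk,
    show g * k⁻¹ * (k * s) * g⁻¹ = g * s * g⁻¹ by group, ← e] at this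

end Hs

namespace Fz
variable (h : Fz z v b c T A B Q M S)
include h

theorem syl : SylowIn 2 S ⊤ := h.toHs.t4_syl

theorem t4_both {x y : G} (hx : x ∈ T) (hy : y ∈ T) (x2 : x * x = 1) (y2 : y * y = 1) (e : x * y = y * x) :
    ∃ F : Subgroup G, #F = 16 ∧ EA F ∧ x ∈ F ∧ y ∈ F := by
  have p := h.inv _ (mul_mem hx hy) (by
    calc x * y * (x * y) = x * (y * x) * y := by group
      _ = x * x * (y * y) := by rw [← e]; group
      _ = 1 := by rw [x2, y2, mul_one])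
  rcases h.inv x hx x2 with a | a <;> rcases h.inv y hy y2 with a' | a'
  · exact ⟨A, h.cA, h.eA, a, a'⟩
  · exact p.elim (fun p => ⟨A, h.cA, h.eA, a, (mul_mem_cancel_left a).1 p⟩)
      fun p => ⟨B, h.cB, h.eB, (mul_mem_cancel_right a').1 p, a'⟩
  · exact p.elim (fun p => ⟨A, h.cA, h.eA, (mul_mem_cancel_right a').1 p, a'⟩)
      fun p => ⟨B, h.cB, h.eB, a, (mul_mem_cancel_left a).1 p⟩
  · exact ⟨B, h.cB, h.eB, a, a'⟩

theorem t4_notT {t g : G} (ht : t ∈ C1[z]) (tT : t ∉ T) (t2 : t * t = 1) : g * t * g⁻¹ ∉ T := fun hu => by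
  have := Nat.fact_prime_two
  have sq : ∀ (k : G) {x : G}, x * x = 1 → k * x * k⁻¹ * (k * x * k⁻¹) = 1 := fun k x e => by
    rw [conj_mul, e, mul_one, mul_inv_cancel]
  obtain ⟨y, -, e1, c1⟩ := h.sqz t ht t2 tT
  obtain ⟨F, cF, eF, m, -⟩ := h.t4_both hu hu (sq g t2) (sq g t2) rfl
  have m := mem_cj_inv.2 m
  have eF := eF.cj g⁻¹
  obtain ⟨P, hP, le⟩ := Sylow_superset (M := C1[t]) (zpowers_le.2 (mem_cent1.2 c1)) (h.toHs.t4_two e1)
  obtain ⟨k0, hk0, l0⟩ := Sylow_Jsub hP (fun x hx => mem_cent1.2 (eF.comm hx m)) eF.pg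
  obtain ⟨k, -, l⟩ := Sylow_Jsub h.syl le_top hP.pg
  have m1 : k * t * k⁻¹ ∈ T := by
    refine h.E16 (cj k (cj k0 (cj g⁻¹ F))) (((cj_mono k l0).trans l).trans h.SH) (by simpa using cF)
      ((eF.cj k0).cj k) (conj_mem_cj k ?_)
    have := conj_mem_cj k0 m
    rwa [mem_cent1.1 hk0, mul_inv_cancel_right] at this
  have m2 : k * z * k⁻¹ ∈ T := by
    have := h.sq4 _ (h.SH (l (conj_mem_cj k (le (mem_zpowers y))))) (by rw [conj_mul, e1, sq k h.z2])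
    rwa [conj_mul, e1] at this
  obtain ⟨F', cF', eF', a, a'⟩ := h.t4_both m1 m2 (sq k t2) (sq k h.z2)
    (by rw [conj_mul, conj_mul, mem_cent1.1 ht])
  have eF' := eF'.cj k⁻¹
  exact tT (h.E16 (cj k⁻¹ F') (fun x hx => mem_cent1.2 (eF'.comm hx (mem_cj_inv.2 a'))) (by simpa using cF') eF'
    (mem_cj_inv.2 a))

theorem t4_TK {K : Subgroup G} (hK : K.Normal) (hi : K.index ∣ 2) : T ≤ K := fun x hx => by
  have mm : ∀ x y : G, x * y ∈ K ↔ (x ∈ K ↔ y ∈ K) := fun x y => by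
    rcases (Nat.dvd_prime Nat.prime_two).1 hi with e | e
    · simp [index_eq_one.1 e]
    · exact mul_mem_iff_of_index_two e
  have cj : ∀ g x : G, g * x * g⁻¹ ∈ K ↔ x ∈ K := fun g x =>
    ⟨fun m => by simpa [mul_assoc] using hK.conj_mem _ m g⁻¹, fun m => hK.conj_mem _ m g⟩
  have zK : z ∈ K := by
    have := cj b v
    rw [h.bv, mm] at this
    tauto
  have vK : v ∈ K := by
    obtain ⟨g, e⟩ := isConj_iff.1 h.zv
    exact e ▸ (cj g z).2 zK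
  obtain ⟨r, hr⟩ := h.r3
  have m : x * (r * x * r⁻¹) * (r * (r * x * r⁻¹) * r⁻¹) ∈ K := by
    rcases (h.U _).1 (hr x hx) with e | e | e | e <;> rw [e]
    exacts [one_mem K, zK, vK, mul_mem vK zK]
  rw [mm, mm, cj, cj, cj] at m
  tauto

theorem transfer : ∃ K : Subgroup G, K.Normal ∧ K.index = 4 ∧ S ⊓ K = T ∧ #(C1[z] ⊓ K : Subgroup G) = 192 := by
  have i : ∀ X ≤ S, #X = 128 → X.relIndex S = 2 := fun X l e => by
    have := card_mul_relIndex l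
    rw [e, h.cS] at this; omega
  obtain ⟨K1, n1, i1, f1⟩ := t4_tr h.syl (i Q h.QS h.cQ)
  obtain ⟨K2, n2, i2, f2⟩ := t4_tr h.syl (i M h.MS h.cM)
  have bS := h.QS h.bQ
  have cS := h.MS h.cM'
  have cT : c ∉ T := fun e => h.cQ' (h.TQ e)
  have bM : b ∉ M := fun e => h.bT (h.QM b h.bQ e)
  have bq : ∀ a, a * b * a⁻¹ ∈ S → a * b * a⁻¹ ∈ Q := fun a m =>
    h.toHs.t4_inQ h.bQ h.bT h.b2 (h.SH m) (h.t4_notT (h.SH bS) h.bT h.b2) rfl
  have c1 : c ∉ K1 := fun e => h.cQ' ((f1 c cS h.c2 fun a _ => iff_of_false (fun m => h.cQ'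
    (h.toHs.t4_inQ (g := a⁻¹) m (h.t4_notT (h.SH cS) cT h.c2) (by rw [conj_mul, h.c2, mul_one, mul_inv_cancel])
      (h.SH cS) cT (by group))) h.cQ').1 e)
  have b1 : b ∈ K1 := (f1 b bS h.b2 fun a m => iff_of_true (bq a m) h.bQ).2 h.bQ
  have b2 : b ∉ K2 := fun e => bM ((f2 b bS h.b2 fun a m => iff_of_false
    (fun m' => h.t4_notT (h.SH bS) h.bT h.b2 (h.QM _ (bq a m) m')) bM).1 e)
  have two : ∀ (K X : Subgroup G) (x : G), K.Normal → K.index ∣ 2 → x ∈ X → x ∉ K → K.relIndex X = 2 :=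
    fun K X x n d m m' => ((Nat.dvd_prime Nat.prime_two).1 ((relIndex_dvd_index_of_normal K X).trans d)).resolve_left
      fun e => m' (relIndex_eq_one.1 e m)
  have four : ∀ X : Subgroup G, S ≤ X → (K2 ⊓ K1).relIndex X = 4 := fun X l => by
    rw [← relIndex_inf_mul_relIndex, two K2 (K1 ⊓ X) b n2 i2 ⟨b1, l bS⟩ b2, two K1 X c n1 i1 (l cS) c1]
  refine ⟨K2 ⊓ K1, inferInstance, (relIndex_top_right _).symm.trans (four ⊤ le_top), ?_, ?_⟩
  · refine (eq_of_card_le (le_inf h.toHs.t4_TS (le_inf (h.t4_TK n2 i2) (h.t4_TK n1 i1))) ?_).symm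
    have := card_inf_mul_relIndex (K2 ⊓ K1) S
    rw [four S le_rfl, h.cS, inf_comm] at this
    rw [h.cT]; omega
  · have := card_inf_mul_relIndex (K2 ⊓ K1) C1[z]
    rw [four _ h.SH, h.cH, inf_comm] at this
    omega

end Fz
end Cfsg.Agent.A34
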